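import Cfsg.Agent.Powell16.Isolated
import Cfsg.Agent.Cores.Misc

/-!
Components of proper subgroups met by elements of order `r` in `Z(J(P))`.
-/

set_option autoImplicit false
set_option linter.style.haveILetI false

open scoped commutatorElement Pointwise
open Cfsg CfsgLib.Cores

namespace CfsgLib.Powell

universe u

variable {G : Type u} [Group G] {r : ℕ}

/-- `K` is a component of the subgroup `M`. -/
def IsCompIn (M K : Subgroup G) : Prop :=
  K ≤ M ∧ IsComponent (K.subgroupOf M)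

theorem IsCompIn.quasisimple {M K : Subgroup G} (hK : IsCompIn M K) : IsQuasisimple ↥K :=
  isQuasisimple_congr (Subgroup.subgroupOfEquivOfLe hK.1) hK.2.2

theorem IsCompIn.perfect {M K : Subgroup G} (hK : IsCompIn M K) : ⁅K, K⁆ = K :=
  Subgroup.isPerfect_iff.mp hK.quasisimple.1

theorem IsCompIn.of_le {M N K : Subgroup G} (hK : IsCompIn M K) (hKN : K ≤ N) (hNM : N ≤ M) :
    IsCompIn N K := by
  refine ⟨hKN, ?_, isQuasisimple_congr (Subgroup.subgroupOfEquivOfLe hKN).symm hK.quasisimple⟩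
  have e : (K.subgroupOf M).comap (Subgroup.inclusion hNM) = K.subgroupOf N := rfl
  exact e ▸ hK.2.1.comap _

theorem mem_centralizer_of_subgroupOf {M K : Subgroup G} (hKM : K ≤ M) {x : G} (hx : x ∈ M)
    (h : (⟨x, hx⟩ : M) ∈ Subgroup.centralizer (K.subgroupOf M : Set M)) :
    x ∈ Subgroup.centralizer (K : Set G) :=
  Subgroup.mem_centralizer_iff.mpr fun g hg =>
    congrArg Subtype.val (Subgroup.mem_centralizer_iff.mp h ⟨g, hKM hg⟩ hg)

theorem map_subgroupOf_conj {M K : Subgroup G} {x : G} (hx : x ∈ M) (hKM : K ≤ M) :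
    (K.subgroupOf M).map (MulAut.conj (⟨x, hx⟩ : M)).toMonoidHom =
      (K.map (MulAut.conj x).toMonoidHom).subgroupOf M := by
  ext ⟨y, hy⟩
  constructor
  · rintro ⟨a, ha, he⟩
    exact ⟨a, ha, congrArg Subtype.val he⟩
  · rintro ⟨a, ha, he⟩
    exact ⟨⟨a, hKM ha⟩, ha, Subtype.ext he⟩

theorem IsCompIn.eq_of_not_le_centralizer [Finite G] {M K L : Subgroup G} (hK : IsCompIn M K)
    (hL : IsCompIn M L) (h : ¬ K ≤ Subgroup.centralizer (L : Set G)) : K = L := by
  by_contra hne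
  refine h fun k hk => mem_centralizer_of_subgroupOf hL.1 (hK.1 hk) ?_
  refine Subgroup.commutator_eq_bot_iff_le_centralizer.mp
    (commutator_eq_bot_of_ne hK.2 hL.2 fun e => hne ?_) hk
  exact (Subgroup.map_subgroupOf_eq_of_le hK.1).symm.trans
    ((congrArg (Subgroup.map M.subtype) e).trans (Subgroup.map_subgroupOf_eq_of_le hL.1))

theorem IsCompIn.conj {M K : Subgroup G} (hK : IsCompIn M K) {g : G} (hg : g ∈ M) :
    IsCompIn M (K.map (MulAut.conj g).toMonoidHom) := by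
  refine ⟨?_, map_subgroupOf_conj hg hK.1 ▸ isComponent_conj hK.2 ⟨g, hg⟩⟩
  rintro _ ⟨k, hk, rfl⟩
  exact mul_mem (mul_mem hg (hK.1 hk)) (inv_mem hg)

variable [Finite G] [hr : Fact r.Prime]

theorem IsCompIn.le_centralizer_coreIn (h : Setup G r) {M K : Subgroup G} (hM : M ≠ ⊤)
    (hK : IsCompIn M K) {x : G} (hx : IsZElem r x) (hxM : x ∈ M)
    (hxK : x ∉ Subgroup.centralizer (K : Set G)) :
    K ≤ Subgroup.centralizer (coreIn r M : Set G) := by
  rcases component_le_or_commutes hK.2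
    (inferInstance : (pPrimeCore r ↥M).Normal).isSubnormal with h1 | h1
  · exact absurd (Subgroup.mem_centralizer_iff.mpr fun g hg =>
      h.commute_coreIn hx hM hxM ⟨⟨g, hK.1 hg⟩, h1 hg, rfl⟩) hxK
  · intro k hk
    refine Subgroup.mem_centralizer_iff.mpr ?_
    rintro _ ⟨y, hy, rfl⟩
    exact congrArg Subtype.val (Subgroup.mem_centralizer_iff.mp
      (Subgroup.commutator_eq_bot_iff_le_centralizer.mp h1
        (show (⟨k, hK.1 hk⟩ : M) ∈ K.subgroupOf M from hk)) y hy)

theorem map_hat_isComponent (h : Setup G r) {M K : Subgroup G} (hM : M ≠ ⊤) (hK : IsCompIn M K)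
    {x : G} (hx : IsZElem r x) (hxM : x ∈ M) (hxK : x ∉ Subgroup.centralizer (K : Set G)) :
    IsComponent ((K.subgroupOf M).map (QuotientGroup.mk' (pPrimeCore r ↥M))) := by
  refine (map_eq_bot_or_isComponent _ (QuotientGroup.mk'_surjective _) hK.2).resolve_left fun hbot => ?_
  refine hxK (Subgroup.mem_centralizer_iff.mpr fun g hg => h.commute_coreIn hx hM hxM ?_)
  have h1 : QuotientGroup.mk' (pPrimeCore r ↥M) ⟨g, hK.1 hg⟩ ∈ (⊥ : Subgroup _) := hbot ▸ ⟨_, hg, rfl⟩
  exact (mk_eq_one_iff _).mp (Subgroup.mem_bot.mp h1)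

/-- An element of order `r` in `Z(J(P))` normalises every component. -/
theorem Setup.zElem_normalizes (h : Setup G r) {M K : Subgroup G} (hM : M ≠ ⊤) (hK : IsCompIn M K)
    {x : G} (hx : IsZElem r x) (hxM : x ∈ M) {a : G} (ha : a ∈ K) : x * a * x⁻¹ ∈ K := by
  by_cases hxK : x ∈ Subgroup.centralizer (K : Set G)
  · rw [← Subgroup.mem_centralizer_iff.mp hxK a ha, mul_inv_cancel_right]
    exact ha
  set f := QuotientGroup.mk' (pPrimeCore r ↥M) with hf
  set K₀ := K.subgroupOf M with hK₀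
  set K₁ := K₀.map (MulAut.conj (⟨x, hxM⟩ : M)).toMonoidHom with hK₁
  suffices heq : K₁ = K₀ by
    have h1 : (MulAut.conj (⟨x, hxM⟩ : M)) ⟨a, hK.1 ha⟩ ∈ K₀ := heq ▸ ⟨_, ha, rfl⟩
    exact h1
  by_contra hne
  have hKhat : IsComponent (K₀.map f) := map_hat_isComponent h hM hK hx hxM hxK
  apply not_commutator_self_eq_bot hKhat
  have himg : K₁.map f = K₀.map f := by
    have hnorm : f ⟨x, hxM⟩ ∈ Subgroup.normalizer (K₀.map f : Set _) := by
      have hcs : cs (K₀.map f) ≤ Subgroup.normalizer (K₀.map f : Set _) := by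
        intro y hy
        obtain ⟨k, hk, c, hc, rfl⟩ := mem_cs_iff.mp hy
        exact mul_mem (Subgroup.le_normalizer hk) (Subgroup.centralizer_le_normalizer _ hc)
      exact hcs (fstar_le_cs hKhat (h.zElem_fstar hM hx hxM))
    ext y
    constructor
    · rintro ⟨_, ⟨b, hb, rfl⟩, rfl⟩
      show f (⟨x, hxM⟩ * b * ⟨x, hxM⟩⁻¹) ∈ _
      rw [map_mul, map_mul, map_inv]
      exact (Subgroup.mem_normalizer_iff.mp hnorm _).mp ⟨b, hb, rfl⟩
    · intro hy
      obtain ⟨b, hb, he⟩ := (Subgroup.mem_normalizer_iff.mp (inv_mem hnorm) y).mp hy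
      refine ⟨_, ⟨b, hb, rfl⟩, ?_⟩
      show f (⟨x, hxM⟩ * b * ⟨x, hxM⟩⁻¹) = y
      rw [map_mul, map_mul, map_inv, he]; group
  conv_lhs => arg 1; rw [← himg]
  rw [← Subgroup.map_commutator, commutator_eq_bot_of_ne (isComponent_conj hK.2 _) hK.2 hne,
    Subgroup.map_bot]

/-- An element of order `r` in `Z(J(P))` induces an inner automorphism on every component. -/
theorem Setup.zElem_cs (h : Setup G r) {M K : Subgroup G} (hM : M ≠ ⊤) (hK : IsCompIn M K)
    {x : G} (hx : IsZElem r x) (hxM : x ∈ M) : x ∈ cs K := by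
  by_cases hxK : x ∈ Subgroup.centralizer (K : Set G)
  · exact centralizer_le_cs K hxK
  set f := QuotientGroup.mk' (pPrimeCore r ↥M) with hf
  have hKhat := map_hat_isComponent h hM hK hx hxM hxK
  obtain ⟨l, hl, c, hc, he⟩ := mem_cs_iff.mp (fstar_le_cs hKhat (h.zElem_fstar hM hx hxM))
  obtain ⟨l₀, hl₀, rfl⟩ := hl
  refine mem_cs_iff.mpr ⟨(l₀ : G), hl₀, (l₀ : G)⁻¹ * x, ?_, (mul_inv_cancel_left _ _).symm⟩
  refine centralizes_of_central_action hK.perfect (fun a ha => ?_) (fun a ha => ?_)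
  · have e : (l₀ : G)⁻¹ * x * a * ((l₀ : G)⁻¹ * x)⁻¹ = (l₀ : G)⁻¹ * (x * a * x⁻¹) * l₀ := by group
    rw [e]
    exact mul_mem (mul_mem (inv_mem hl₀) (h.zElem_normalizes hM hK hx hxM ha)) hl₀
  · set b : G := (l₀ : G)⁻¹ * x * a * ((l₀ : G)⁻¹ * x)⁻¹ * a⁻¹ with hb
    have hbR : b ∈ coreIn r M := by
      set a₀ : M := ⟨a, hK.1 ha⟩
      have h1 : f (l₀⁻¹ * ⟨x, hxM⟩ * a₀ * (l₀⁻¹ * ⟨x, hxM⟩)⁻¹ * a₀⁻¹) = 1 := by
        simp only [map_mul, map_inv, ← hf] at he ⊢
        rw [he, inv_mul_cancel_left,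
          ← Subgroup.mem_centralizer_iff.mp hc (f a₀) ⟨a₀, ha, rfl⟩, mul_inv_cancel_right,
          mul_inv_cancel]
      exact (mk_eq_one_iff (l₀⁻¹ * ⟨x, hxM⟩ * a₀ * (l₀⁻¹ * ⟨x, hxM⟩)⁻¹ * a₀⁻¹).2).mp h1
    exact Subgroup.mem_centralizer_iff.mpr fun g hg =>
      (Subgroup.mem_centralizer_iff.mp (hK.le_centralizer_coreIn h hM hx hxM hxK hg) b hbR).symm

/-- A component of `M/O_{r'}(M)` moved by `x` is the image of a component of `M`. -/
theorem Setup.exists_comp_lift (h : Setup G r) {M : Subgroup G} (hM : M ≠ ⊤) {x : G}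
    (hx : IsZElem r x) (hxM : x ∈ M) {K : Subgroup (↥M ⧸ pPrimeCore r ↥M)} (hK : IsComponent K)
    (hxK : QuotientGroup.mk' (pPrimeCore r ↥M) ⟨x, hxM⟩ ∉ Subgroup.centralizer (K : Set _)) :
    ∃ D : Subgroup G, IsCompIn M D ∧ (D.subgroupOf M).map (QuotientGroup.mk' (pPrimeCore r ↥M)) = K := by
  set f := QuotientGroup.mk' (pPrimeCore r ↥M) with hf
  set W : Subgroup ↥M := Subgroup.normalClosure {(⟨x, hxM⟩ : M)} with hW
  have hWc : ∀ w ∈ W, ∀ y ∈ pPrimeCore r ↥M, w * y = y * w := by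
    have hle : W ≤ Subgroup.centralizer (pPrimeCore r ↥M : Set M) := by
      rw [hW, Subgroup.normalClosure, Subgroup.closure_le]
      intro w hw
      obtain ⟨a, ha, haw⟩ := Group.mem_conjugatesOfSet_iff.mp hw
      obtain ⟨c, rfl⟩ := isConj_iff.mp haw
      rw [Set.mem_singleton_iff] at ha
      subst ha
      refine Subgroup.mem_centralizer_iff.mpr fun y hy => Subtype.ext ?_
      exact h.commute_coreIn (hx.conj (c : G)) hM (mul_mem (mul_mem c.2 hxM) (inv_mem c.2))
        ⟨y, hy, rfl⟩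
    exact fun w hw y hy => (Subgroup.mem_centralizer_iff.mp (hle hw) y hy).symm
  haveI : (W.map f).Normal :=
    (inferInstance : W.Normal).map f (QuotientGroup.mk'_surjective _)
  have hxW : f ⟨x, hxM⟩ ∈ W.map f := ⟨_, Subgroup.subset_normalClosure rfl, rfl⟩
  have hKW : K ≤ W.map f := by
    refine (component_le_or_commutes hK (inferInstance : (W.map f).Normal).isSubnormal).resolve_right
      fun h1 => hxK ?_
    exact Subgroup.commutator_eq_bot_iff_le_centralizer.mp (commutator_eq_bot_comm.mp h1) hxW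
  set g := f.subgroupMap W with hg
  have hZc : g.ker ≤ Subgroup.center ↥W := by
    intro y hy
    have hy' : (y : M) ∈ pPrimeCore r ↥M :=
      (QuotientGroup.eq_one_iff _).mp (congrArg Subtype.val (MonoidHom.mem_ker.mp hy))
    exact Subgroup.mem_center_iff.mpr fun w => Subtype.ext (hWc w w.2 y hy')
  set e := QuotientGroup.quotientKerEquivOfSurjective g (f.subgroupMap_surjective W) with he
  have heg : ∀ w : W, e (QuotientGroup.mk' g.ker w) = g w := fun _ => rfl
  set Kq := (K.subgroupOf (W.map f)).map e.symm.toMonoidHom with hKq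
  have hKqc : IsComponent Kq := isComponent_map_equiv e.symm (isComponent_subgroupOf hK hKW)
  set E := Kq.comap (QuotientGroup.mk' g.ker) with hE
  have hEmap : E.map (QuotientGroup.mk' g.ker) = Kq :=
    Subgroup.map_comap_eq_self_of_surjective (QuotientGroup.mk'_surjective _) Kq
  have hEK : E.map g = K.subgroupOf (W.map f) := by
    have hc : g = e.toMonoidHom.comp (QuotientGroup.mk' g.ker) := MonoidHom.ext fun w => (heg w).symm
    conv_lhs => rw [hc]
    rw [← Subgroup.map_map, hEmap, hKq, Subgroup.map_map]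
    ext y
    simp
  have hDc : IsComponent ⁅E, E⁆ := by
    refine isComponent_commutator_of_map hZc ?_ (hEmap.symm ▸ hKqc)
    conv_lhs => rw [← QuotientGroup.ker_mk' g.ker]
    exact Subgroup.ker_le_comap _ _
  set D : Subgroup ↥M := (⁅E, E⁆).map W.subtype with hD
  have hDcomp : IsComponent D := isComponent_map_subtype (inferInstance : W.Normal).isSubnormal hDc
  have e' : (D.map M.subtype).subgroupOf M = D :=
    Subgroup.comap_map_eq_self_of_injective M.subtype_injective D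
  refine ⟨D.map M.subtype, ⟨Subgroup.map_subtype_le _, ?_⟩, ?_⟩
  · rw [e']
    exact hDcomp
  · have h1 : D.map f = ((⁅E, E⁆).map g).map (W.map f).subtype := by
      rw [hD, Subgroup.map_map, Subgroup.map_map]
      rfl
    rw [e', h1, Subgroup.map_commutator, hEK, Subgroup.map_commutator,
      Subgroup.map_subgroupOf_eq_of_le hKW, commutator_self_of_isComponent hK]

/-- An element centralising every component of `M` lies in `O_r` modulo the core. -/
theorem Setup.exists_comp_or_pCore (h : Setup G r) {M : Subgroup G} (hM : M ≠ ⊤) {x : G}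
    (hx : IsZElem r x) (hxM : x ∈ M) :
    (∃ K : Subgroup G, IsCompIn M K ∧ x ∉ Subgroup.centralizer (K : Set G)) ∨
      QuotientGroup.mk' (pPrimeCore r ↥M) ⟨x, hxM⟩ ∈ pCore r (↥M ⧸ pPrimeCore r ↥M) := by
  by_contra hcon
  rw [not_or] at hcon
  apply hcon.2
  refine mem_pCore_of_centralizes_comps (hat_core_eq_bot M) (h.zElem_fstar hM hx hxM) fun K hK => ?_
  by_contra hxK
  obtain ⟨D, hD, hDK⟩ := h.exists_comp_lift hM hx hxM hK hxK
  refine hcon.1 ⟨D, hD, fun hxD => hxK ?_⟩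
  rw [← hDK]
  refine Subgroup.mem_centralizer_iff.mpr ?_
  rintro _ ⟨⟨y, hyM⟩, hy, rfl⟩
  rw [← map_mul, ← map_mul]
  exact congrArg _ (Subtype.ext (Subgroup.mem_centralizer_iff.mp hxD y hy))

/-- Two elements of order `r` in `Z(J(P))` lying in `O_r` modulo the core commute. -/
theorem Setup.commute_of_hat_pCore (h : Setup G r) {M : Subgroup G} (hM : M ≠ ⊤) {a b : G}
    (ha : IsZElem r a) (hb : IsZElem r b) (haM : a ∈ M) (hbM : b ∈ M)
    (hah : QuotientGroup.mk' (pPrimeCore r ↥M) ⟨a, haM⟩ ∈ pCore r (↥M ⧸ pPrimeCore r ↥M))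
    (hbh : QuotientGroup.mk' (pPrimeCore r ↥M) ⟨b, hbM⟩ ∈ pCore r (↥M ⧸ pPrimeCore r ↥M)) :
    a * b = b * a := by
  obtain ⟨U, hU, haU, hbU⟩ := exists_common_pGroup haM hbM (i := 1) (j := 1)
    (by rw [pow_one]; exact ha.2.1) (by rw [pow_one]; exact hb.2.1)
    (fun y hy => h.commute_coreIn ha hM haM hy) Constrained.isPGroup_pCore hah hbh
  exact ha.commute_of_pGroup h hb hU haU hbU

omit [Finite G] hr in
/-- In a simple group with cyclic Sylow `r`-subgroup `P` some element of `N(P)` moves each element of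
order `r` of `P`. -/
theorem exists_normalizer_moves [Fact r.Prime] {Q : Type u} [Group Q] [Finite Q] (hQ : IsSimpleGroup Q)
    (hnc : ∃ a b : Q, a * b ≠ b * a) (hd : r ∣ Nat.card Q) (P : Sylow r Q)
    (hP : IsCyclic (P : Subgroup Q)) {ξ : Q} (hξP : ξ ∈ (P : Subgroup Q)) (hξ : ξ ≠ 1)
    (hξr : ξ ^ r = 1) :
    ∃ η ∈ Subgroup.normalizer ((P : Subgroup Q) : Set Q), η * ξ * η⁻¹ ≠ ξ := by
  have hrp : r.Prime := Fact.out
  by_contra hcon
  push Not at hcon
  obtain ⟨⟨σ, hσP⟩, hσ⟩ := hP.exists_generator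
  have hgen : ∀ t ∈ (P : Subgroup Q), ∃ i : ℤ, σ ^ i = t := fun t ht => by
    obtain ⟨i, hi⟩ := Subgroup.mem_zpowers_iff.mp (hσ ⟨t, ht⟩)
    exact ⟨i, by simpa using congrArg Subtype.val hi⟩
  have hnc' : Subgroup.normalizer ((P : Subgroup Q) : Set Q) ≤
      Subgroup.centralizer ((P : Subgroup Q) : Set Q) := by
    intro g hg
    obtain ⟨m, hm⟩ := hgen _ ((Subgroup.mem_normalizer_iff.mp hg σ).mp hσP)
    obtain ⟨j, hj⟩ := hgen ξ hξP
    obtain ⟨k, hk⟩ := exists_pow_eq_one_of_mem P.2 hσP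
    obtain ⟨k', -, hk'⟩ := (Nat.dvd_prime_pow hrp).mp (orderOf_dvd_of_pow_eq_one hk)
    have hfix := hcon g hg
    rw [← hj, ← conj_zpow, ← hm, ← zpow_mul] at hfix
    have hdiv : ((r : ℤ) ^ k') ∣ (m - 1) * j := by
      have h1 := orderOf_dvd_iff_zpow_eq_one.mpr
        (show σ ^ ((m - 1) * j) = 1 by rw [sub_mul, one_mul, zpow_sub, hfix, mul_inv_cancel])
      rwa [hk', Nat.cast_pow] at h1
    have hrm : (r : ℤ) ∣ m - 1 := by
      by_contra hndvd
      refine hξ ?_
      have h2 : ((r : ℤ) ^ k') ∣ j :=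
        (((Nat.prime_iff_prime_int.mp hrp).coprime_iff_not_dvd.mpr hndvd).pow_left).dvd_of_dvd_mul_left
          hdiv
      rw [← hj]
      refine orderOf_dvd_iff_zpow_eq_one.mp ?_
      rwa [hk', Nat.cast_pow]
    have hpowm : ((r : ℤ) ^ k') ∣ m ^ r ^ k' - 1 := by
      have h3 := dvd_sub_pow_of_dvd_sub (R := ℤ) (p := r) (a := m) (b := 1) (by exact_mod_cast hrm) k'
      rw [one_pow] at h3
      exact dvd_trans (pow_dvd_pow _ (Nat.le_succ k')) (by exact_mod_cast h3)
    have hconj : ∀ n : ℕ, g ^ n * σ * (g ^ n)⁻¹ = σ ^ (m ^ n) := by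
      intro n
      induction n with
      | zero => simp
      | succ n ih =>
        calc g ^ (n + 1) * σ * (g ^ (n + 1))⁻¹ = g * (g ^ n * σ * (g ^ n)⁻¹) * g⁻¹ := by
              rw [pow_succ']; group
          _ = σ ^ (m ^ (n + 1)) := by rw [ih, ← conj_zpow, ← hm, ← zpow_mul, pow_succ']
    have hCg : g ^ r ^ k' ∈ Subgroup.centralizer ((P : Subgroup Q) : Set Q) := by
      have h4 : g ^ r ^ k' * σ * (g ^ r ^ k')⁻¹ = σ := by
        rw [hconj]
        have h5 : σ ^ (m ^ r ^ k' - 1) = 1 := by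
          refine orderOf_dvd_iff_zpow_eq_one.mp ?_
          rwa [hk', Nat.cast_pow]
        rw [zpow_sub_one, mul_inv_eq_one] at h5
        exact h5
      refine Subgroup.mem_centralizer_iff.mpr fun t ht => ?_
      obtain ⟨i, rfl⟩ := hgen t ht
      exact ((Commute.zpow_right (mul_inv_eq_iff_eq_mul.mp h4) i).eq).symm
    set N := Subgroup.normalizer ((P : Subgroup Q) : Set Q) with hN
    set C := (Subgroup.centralizer ((P : Subgroup Q) : Set Q)).subgroupOf N with hC
    haveI : C.Normal := ⟨fun c hc w => by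
      refine Subgroup.mem_subgroupOf.mpr (Subgroup.mem_centralizer_iff.mpr fun t ht => ?_)
      have hmem2 : (w : Q)⁻¹ * t * w ∈ ((P : Subgroup Q) : Set Q) := by
        have := (Subgroup.mem_normalizer_iff.mp (inv_mem w.2) t).mp ht
        rwa [inv_inv] at this
      have hc' : (w : Q)⁻¹ * t * w * (c : Q) = (c : Q) * ((w : Q)⁻¹ * t * w) :=
        Subgroup.mem_centralizer_iff.mp hc _ hmem2
      calc t * ((w : Q) * c * (w : Q)⁻¹)
          = w * ((w : Q)⁻¹ * t * w * c) * (w : Q)⁻¹ := by group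
        _ = w * (c * ((w : Q)⁻¹ * t * w)) * (w : Q)⁻¹ := by rw [hc']
        _ = w * c * (w : Q)⁻¹ * t := by group⟩
    have hidx : ¬ r ∣ C.index := by
      intro hd'
      refine P.not_dvd_index (dvd_trans hd' (dvd_trans ?_ (Subgroup.relIndex_dvd_index_of_le
        Subgroup.le_normalizer)))
      have hPC : (P : Subgroup Q) ≤ Subgroup.centralizer ((P : Subgroup Q) : Set Q) := fun t ht =>
        Subgroup.mem_centralizer_iff.mpr fun s hs => by
          obtain ⟨i, rfl⟩ := hgen t ht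
          obtain ⟨i', rfl⟩ := hgen s hs
          exact Commute.zpow_zpow_self σ i' i
      exact Subgroup.index_dvd_of_le fun t ht => hPC ht
    have hCidx : (⟨g, hg⟩ : N) ^ C.index ∈ C := Subgroup.pow_index_mem C _
    have hcop : Nat.gcd C.index (r ^ k') = 1 :=
      Nat.Coprime.pow_right _ ((hrp.coprime_iff_not_dvd.mpr hidx).symm)
    have hmem : (⟨g, hg⟩ : N) ∈ C := by
      have hb := Int.gcd_eq_gcd_ab (C.index : ℤ) ((r ^ k' : ℕ) : ℤ)
      rw [Int.gcd_natCast_natCast, hcop] at hb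
      rw [← zpow_one (⟨g, hg⟩ : N), show (1 : ℤ) = ((1 : ℕ) : ℤ) from rfl, hb, zpow_add, zpow_mul,
        zpow_mul, zpow_natCast, zpow_natCast]
      exact mul_mem (zpow_mem hCidx _) (zpow_mem (Subgroup.mem_subgroupOf.mpr hCg) _)
    exact hmem
  obtain ⟨P', N, hN, hcompl⟩ :=
    CfsgLib.Transfer.hasNormalPComplement_of_normalizer_le_centralizer P hnc'
  rcases IsSimpleGroup.eq_bot_or_eq_top_of_normal N hN with h1 | h1
  · have hPtop : (P' : Subgroup Q) = ⊤ := Subgroup.isComplement'_bot_left.mp (h1 ▸ hcompl)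
    obtain ⟨a, b, hab⟩ := hnc
    obtain ⟨q, hq⟩ := MulAction.exists_smul_eq Q P' P
    have hPT : (P : Subgroup Q) = ⊤ := by
      rw [← hq]
      refine top_le_iff.mp fun t _ => ?_
      exact ⟨q⁻¹ * t * q, hPtop ▸ Subgroup.mem_top _, by simp [mul_assoc]⟩
    obtain ⟨i, rfl⟩ := hgen a (hPT ▸ Subgroup.mem_top a)
    obtain ⟨i', rfl⟩ := hgen b (hPT ▸ Subgroup.mem_top b)
    exact hab (Commute.zpow_zpow_self σ i i')
  · exact P'.ne_bot_of_dvd_card hd (Subgroup.isComplement'_top_left.mp (h1 ▸ hcompl))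

theorem center_quot_ne (hq : IsQuasisimple G) :
    ∃ a b : G ⧸ Subgroup.center G, a * b ≠ b * a := by
  by_contra hc
  push Not at hc
  apply center_ne_top_of_isQuasisimple hq
  haveI := hq.1
  rw [eq_top_iff, ← Group.IsPerfect.commutator_eq_top (G := G), commutator_def,
    Subgroup.commutator_le]
  intro a _ b _
  rw [← QuotientGroup.eq_one_iff, ← QuotientGroup.mk'_apply, map_commutatorElement,
    commutatorElement_eq_one_iff_mul_comm]
  exact hc _ _

theorem Setup.comp_facts (h : Setup G r) {K : Subgroup G} (hK : IsQuasisimple ↥K) (hne : K ≠ ⊤)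
    (hd : r ∣ (Subgroup.center ↥K).index) : SimpleFacts r (↥K ⧸ Subgroup.center ↥K) :=
  h.facts K hne _ hK.2 (center_quot_ne hK) (by rwa [← Subgroup.index_eq_card])
    (QuotientGroup.mk' _) (QuotientGroup.mk'_surjective _)

/-- A component moved by an element of order `r` in `Z(J(P))` contains one. -/
theorem Setup.exists_zElem_mem (h : Setup G r) {M K : Subgroup G} (hM : M ≠ ⊤) (hK : IsCompIn M K)
    {x : G} (hx : IsZElem r x) (hxM : x ∈ M) (hxK : x ∉ Subgroup.centralizer (K : Set G)) :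
    r ∣ (Subgroup.center ↥K).index ∧
      ∃ k ∈ K, IsZElem r k ∧ k ∉ Subgroup.centralizer (K : Set G) := by
  have hq := hK.quasisimple
  haveI := hq.2
  have hxcs := h.zElem_cs hM hK hx hxM
  set ξ := proj K ⟨x, hxcs⟩ with hξdef
  have hξ : ξ ≠ 1 := fun e => hxK ((proj_eq_one_iff hxcs).mp e)
  have hξr : ξ ^ r = 1 := by
    rw [hξdef, ← map_pow, show (⟨x, hxcs⟩ : cs K) ^ r = 1 from Subtype.ext (by simpa using hx.2.1),
      map_one]
  have hd : r ∣ (Subgroup.center ↥K).index := by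
    rw [Subgroup.index_eq_card, ← orderOf_eq_prime hξr hξ]
    exact orderOf_dvd_natCard ξ
  refine ⟨hd, ?_⟩
  have hKne : K ≠ ⊤ := fun e => hM (top_le_iff.mp (e ▸ hK.1))
  obtain ⟨P, hP⟩ := (isPGroup_zpowers_of_pow (x := ξ) (k := 1) (by rwa [pow_one])).exists_le_sylow
  obtain ⟨η, hη, hmove⟩ := exists_normalizer_moves hq.2 (center_quot_ne hq)
    (by rwa [← Subgroup.index_eq_card]) P ((h.comp_facts hq hKne hd).cyclic P)
    (hP (Subgroup.mem_zpowers ξ)) hξ hξr
  obtain ⟨⟨n, hnK⟩, rfl⟩ := QuotientGroup.mk_surjective η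
  obtain ⟨l, hl, c, hc, hxe⟩ := mem_cs_iff.mp hxcs
  set y := n * x * n⁻¹ with hy
  have hyz : IsZElem r y := hx.conj n
  set l' := n * l * n⁻¹ with hl'
  have hl'K : l' ∈ K := mul_mem (mul_mem hnK hl) (inv_mem hnK)
  have hye : y = l' * c := by
    have hcn : c * n⁻¹ = n⁻¹ * c := (Subgroup.mem_centralizer_iff.mp hc _ (inv_mem hnK)).symm
    rw [hy, hxe, hl', mul_assoc n, mul_assoc l c, hcn]; group
  have hycs : y ∈ cs K := mem_cs_iff.mpr ⟨l', hl'K, c, hc, hye⟩
  have hproj : proj K ⟨y, hycs⟩ = QuotientGroup.mk ⟨n, hnK⟩ * ξ * (QuotientGroup.mk ⟨n, hnK⟩)⁻¹ := by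
    have e : (⟨y, hycs⟩ : cs K) = ⟨n, le_cs K hnK⟩ * ⟨x, hxcs⟩ * ⟨n, le_cs K hnK⟩⁻¹ :=
      Subtype.ext rfl
    rw [e, map_mul, map_mul, map_inv, proj_of_mem hnK]
  have hcommQ : ξ * proj K ⟨y, hycs⟩ = proj K ⟨y, hycs⟩ * ξ := by
    have hmem : proj K ⟨y, hycs⟩ ∈ (P : Subgroup (↥K ⧸ Subgroup.center ↥K)) := by
      rw [hproj]
      exact (Subgroup.mem_normalizer_iff.mp hη ξ).mp (hP (Subgroup.mem_zpowers ξ))
    haveI := (h.comp_facts hq hKne hd).cyclic P
    letI := IsCyclic.commGroup (α := (P : Subgroup (↥K ⧸ Subgroup.center ↥K)))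
    exact congrArg Subtype.val
      (mul_comm (⟨ξ, hP (Subgroup.mem_zpowers ξ)⟩ : (P : Subgroup (↥K ⧸ Subgroup.center ↥K))) ⟨_, hmem⟩)
  set t := x * y * x⁻¹ * y⁻¹ with ht
  have htcs : t ∈ cs K := mul_mem (mul_mem (mul_mem hxcs hycs) (inv_mem hxcs)) (inv_mem hycs)
  have htC : t ∈ Subgroup.centralizer (K : Set G) := by
    refine (proj_eq_one_iff htcs).mp ?_
    have e : (⟨t, htcs⟩ : cs K) = ⟨x, hxcs⟩ * ⟨y, hycs⟩ * ⟨x, hxcs⟩⁻¹ * ⟨y, hycs⟩⁻¹ := Subtype.ext rfl
    rw [e, map_mul, map_mul, map_mul, map_inv, map_inv, ← hξdef, hcommQ, mul_inv_cancel_right,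
      mul_inv_cancel]
  have htK : t ∈ K := by
    have hcl' : Commute c l' := (Subgroup.mem_centralizer_iff.mp hc l' hl'K).symm
    have hcl : Commute c l := (Subgroup.mem_centralizer_iff.mp hc l hl).symm
    have e : t = l * l' * l⁻¹ * l'⁻¹ := by
      rw [ht, hye, hxe, mul_inv_rev, mul_inv_rev]
      calc l * c * (l' * c) * (c⁻¹ * l⁻¹) * (c⁻¹ * l'⁻¹)
          = l * (c * l') * l⁻¹ * c⁻¹ * l'⁻¹ := by group
        _ = l * l' * (c * l⁻¹) * c⁻¹ * l'⁻¹ := by rw [hcl'.eq]; group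
        _ = l * l' * l⁻¹ * l'⁻¹ := by rw [hcl.inv_right.eq]; group
    rw [e]
    exact mul_mem (mul_mem (mul_mem hl hl'K) (inv_mem hl)) (inv_mem hl'K)
  have htx : x * t = t * x := by
    rw [hxe, mul_assoc, ← Subgroup.mem_centralizer_iff.mp hc t htK, ← mul_assoc,
      Subgroup.mem_centralizer_iff.mp htC l hl, mul_assoc]
  have hty : y * t = t * y := by
    rw [hye, mul_assoc, ← Subgroup.mem_centralizer_iff.mp hc t htK, ← mul_assoc,
      Subgroup.mem_centralizer_iff.mp htC l' hl'K, mul_assoc]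
  have hxy : x * y = y * x := by
    have hiter : ∀ i : ℕ, x ^ i * y * (x ^ i)⁻¹ = t ^ i * y := by
      intro i
      induction i with
      | zero => simp
      | succ i ih =>
        have hti : x * t ^ i = t ^ i * x := (Commute.pow_right htx i).eq
        calc x ^ (i + 1) * y * (x ^ (i + 1))⁻¹ = x * (x ^ i * y * (x ^ i)⁻¹) * x⁻¹ := by
              rw [pow_succ']; group
          _ = x * t ^ i * y * x⁻¹ := by rw [ih]; group
          _ = t ^ i * x * y * x⁻¹ := by rw [hti]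
          _ = t ^ i * (x * y * x⁻¹ * y⁻¹) * y := by group
          _ = t ^ (i + 1) * y := by rw [← ht, pow_succ]
    have htr : t ^ r = 1 := by
      have := hiter r
      rw [hx.2.1, one_mul, inv_one, mul_one] at this
      exact (right_eq_mul.mp this)
    set U := Subgroup.closure ({t, y} : Set G) with hU
    have hUp : IsPGroup r U := by
      refine isPGroup_closure_of_commute ?_ ?_
      · rintro a (rfl | rfl) b (rfl | rfl) <;> first | rfl | exact hty | exact hty.symm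
      · rintro a (rfl | rfl)
        · exact ⟨1, by rwa [pow_one]⟩
        · exact ⟨1, by rw [pow_one]; exact hyz.2.1⟩
    have hstep : U.map (MulAut.conj x).toMonoidHom ≤ U := by
      rw [hU, MonoidHom.map_closure]
      refine (Subgroup.closure_le _).mpr ?_
      rintro _ ⟨a, (rfl | rfl), rfl⟩
      · show x * t * x⁻¹ ∈ U
        rw [htx, mul_inv_cancel_right]
        exact Subgroup.subset_closure (by simp)
      · show x * y * x⁻¹ ∈ U
        have e : x * y * x⁻¹ = t * y := by rw [ht]; group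
        rw [e]
        exact mul_mem (Subgroup.subset_closure (by simp)) (Subgroup.subset_closure (by simp))
    have heq : U.map (MulAut.conj x).toMonoidHom = U := Subgroup.eq_of_le_of_card_ge hstep
      (le_of_eq (Subgroup.card_map_of_injective (MulAut.conj x).injective).symm)
    have hxn : Subgroup.zpowers x ≤ Subgroup.normalizer (U : Set G) := by
      rw [Subgroup.zpowers_le, Subgroup.mem_normalizer_iff]
      intro a
      constructor
      · intro ha
        rw [← heq]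
        exact ⟨a, ha, rfl⟩
      · intro ha
        rw [← heq] at ha
        obtain ⟨b, hb, he⟩ := ha
        exact ((MulAut.conj x).injective he) ▸ hb
    exact hx.commute_of_pGroup h hyz
      ((isPGroup_zpowers_of_pow (k := 1) (by rw [pow_one]; exact hx.2.1)).to_sup_of_normal_right'
        hUp hxn)
      (Subgroup.mem_sup_left (Subgroup.mem_zpowers x))
      (Subgroup.mem_sup_right (Subgroup.subset_closure (by simp)))
  have hkK : y * x⁻¹ ∈ K := by
    have e : y * x⁻¹ = l' * l⁻¹ := by rw [hye, hxe]; group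
    rw [e]
    exact mul_mem hl'K (inv_mem hl)
  have hkC : y * x⁻¹ ∉ Subgroup.centralizer (K : Set G) := by
    intro hcz
    apply hmove
    have h1 := (proj_eq_one_iff (mul_mem hycs (inv_mem hxcs))).mpr hcz
    have e : (⟨y * x⁻¹, mul_mem hycs (inv_mem hxcs)⟩ : cs K) = ⟨y, hycs⟩ * ⟨x, hxcs⟩⁻¹ :=
      Subtype.ext rfl
    rw [e, map_mul, map_inv, mul_inv_eq_one, hproj] at h1
    exact h1
  refine ⟨y * x⁻¹, hkK, hyz.mul h hx.inv (Commute.inv_right hxy.symm).eq ?_, hkC⟩
  exact fun e => hkC (e ▸ one_mem _)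

end CfsgLib.Powell
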