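import Cfsg.Agent.Powell16.Component

/-!
**Three generators.** Under the hypotheses of `Setup` there is a contradiction.
-/

set_option autoImplicit false
set_option linter.style.haveILetI false

open scoped commutatorElement Pointwise
open Cfsg CfsgLib.Cores

namespace CfsgLib.Powell

universe u

variable {G : Type u} [Group G] {r : ℕ}

theorem quasisimple_le_of_conj {K H : Subgroup G} (hK : IsQuasisimple ↥K) {k : G} (hk : k ∈ K)
    (hkC : k ∉ Subgroup.centralizer (K : Set G)) (hH : ∀ g ∈ K, g * k * g⁻¹ ∈ H) : K ≤ H := by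
  set N := Subgroup.normalClosure ({⟨k, hk⟩} : Set ↥K) with hN
  have hle : N ≤ H.comap K.subtype := by
    rw [hN, Subgroup.normalClosure, Subgroup.closure_le]
    intro y hy
    obtain ⟨a, ha, hay⟩ := Group.mem_conjugatesOfSet_iff.mp hy
    obtain ⟨c, rfl⟩ := isConj_iff.mp hay
    rw [Set.mem_singleton_iff] at ha
    subst ha
    exact hH c c.2
  rcases normal_eq_top_or_le_center hK N inferInstance with h1 | h1
  · intro g hg
    exact hle (h1 ▸ Subgroup.mem_top (⟨g, hg⟩ : K))
  · refine absurd (Subgroup.mem_centralizer_iff.mpr fun g hg => ?_) hkC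
    exact congrArg Subtype.val
      (Subgroup.mem_center_iff.mp (h1 (Subgroup.subset_normalClosure rfl)) ⟨g, hg⟩)

theorem eq_bot_of_perfect_of_solvable {H : Subgroup G} (hp : ⁅H, H⁆ = H)
    (hs : Group.IsSolvable ↥H) : H = ⊥ := by
  haveI : Group.IsPerfect ↥H := Subgroup.isPerfect_iff.mpr hp
  obtain ⟨n, hn⟩ := hs.solvable
  have htop : ∀ i, derivedSeries ↥H i = ⊤ := by
    intro i
    induction i with
    | zero => rfl
    | succ i ih =>
      rw [derivedSeries_succ, ih, ← commutator_def, Group.IsPerfect.commutator_eq_top]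
  rw [htop n] at hn
  refine (Subgroup.eq_bot_iff_forall _).mpr fun x hx => ?_
  have h1 : (⟨x, hx⟩ : H) ∈ (⊥ : Subgroup ↥H) := hn ▸ Subgroup.mem_top _
  exact congrArg Subtype.val (Subgroup.mem_bot.mp h1)

theorem exists_pair_closure {K : Subgroup G} (hp : ⁅K, K⁆ = K)
    (h : ∃ a b : ↥K ⧸ Subgroup.center ↥K,
      Subgroup.closure ({a, b} : Set (↥K ⧸ Subgroup.center ↥K)) = ⊤) :
    ∃ a ∈ K, ∃ b ∈ K, K ≤ Subgroup.closure ({a, b} : Set G) := by
  obtain ⟨qa, qb, hq⟩ := h
  obtain ⟨a, rfl⟩ := QuotientGroup.mk_surjective qa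
  obtain ⟨b, rfl⟩ := QuotientGroup.mk_surjective qb
  refine ⟨a, a.2, b, b.2, ?_⟩
  set T := Subgroup.closure ({a, b} : Set ↥K) with hT
  have hsup : T ⊔ Subgroup.center ↥K = ⊤ := by
    have h1 : (T.map (QuotientGroup.mk' (Subgroup.center ↥K))).comap
        (QuotientGroup.mk' (Subgroup.center ↥K)) = ⊤ := by
      rw [hT, MonoidHom.map_closure, Set.image_pair]
      erw [hq]
      rw [Subgroup.comap_top]
    rwa [Subgroup.comap_map_eq, QuotientGroup.ker_mk'] at h1
  haveI : Group.IsPerfect ↥K := Subgroup.isPerfect_iff.mpr hp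
  have hTtop : T = ⊤ := by
    rw [eq_top_iff, ← Group.IsPerfect.commutator_eq_top (G := ↥K), commutator_def,
      Subgroup.commutator_le]
    intro x _ y _
    obtain ⟨t, ht, z, hz, rfl⟩ := Subgroup.mem_sup_of_normal_right.mp (hsup ▸ Subgroup.mem_top x :
      x ∈ T ⊔ Subgroup.center ↥K)
    obtain ⟨t', ht', z', hz', rfl⟩ := Subgroup.mem_sup_of_normal_right.mp (hsup ▸ Subgroup.mem_top y :
      y ∈ T ⊔ Subgroup.center ↥K)
    have hzc : ∀ {z : ↥K}, z ∈ Subgroup.center ↥K → ∀ t : ↥K, Commute z t := fun hz t =>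
      (Subgroup.mem_center_iff.mp hz t).symm
    have e : ⁅t * z, t' * z'⁆ = ⁅t, t'⁆ := by
      rw [(hzc hz t).symm.eq, (hzc hz' t').symm.eq]
      exact commutator_central_mul (hzc hz t) (hzc hz t') (hzc hz' t) (hzc hz' t') (hzc hz z')
    rw [e, commutatorElement_def]
    exact mul_mem (mul_mem (mul_mem ht ht') (inv_mem ht)) (inv_mem ht')
  intro g hg
  have h2 : (⟨g, hg⟩ : K) ∈ T := hTtop ▸ Subgroup.mem_top _
  have h3 : g ∈ T.map K.subtype := ⟨_, h2, rfl⟩
  rwa [hT, MonoidHom.map_closure, Set.image_pair] at h3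

variable [Finite G] [hr : Fact r.Prime]

/-- A component of a proper subgroup containing an element of order `r` in `Z(J(P))`. -/
def Active (r : ℕ) (K : Subgroup G) : Prop :=
  (∃ M : Subgroup G, M ≠ ⊤ ∧ IsCompIn M K) ∧ r ∣ (Subgroup.center ↥K).index ∧
    ∃ k ∈ K, IsZElem r k ∧ k ∉ Subgroup.centralizer (K : Set G)

omit [Finite G] hr in
theorem Active.quasisimple {K : Subgroup G} (hK : Active r K) : IsQuasisimple ↥K :=
  hK.1.choose_spec.2.quasisimple

omit [Finite G] hr in
theorem Active.perfect {K : Subgroup G} (hK : Active r K) : ⁅K, K⁆ = K :=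
  hK.1.choose_spec.2.perfect

omit [Finite G] hr in
theorem Active.ne_top {K : Subgroup G} (hK : Active r K) : K ≠ ⊤ := fun e =>
  hK.1.choose_spec.1 (top_le_iff.mp (e ▸ hK.1.choose_spec.2.1))

theorem Setup.active_of_moved (h : Setup G r) {M L : Subgroup G} (hM : M ≠ ⊤) (hL : IsCompIn M L)
    {x : G} (hx : IsZElem r x) (hxM : x ∈ M) (hxL : x ∉ Subgroup.centralizer (L : Set G)) :
    Active r L :=
  ⟨⟨M, hM, hL⟩, h.exists_zElem_mem hM hL hx hxM hxL⟩

theorem Setup.exists_active (h : Setup G r) : ∃ K : Subgroup G, Active r K := by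
  obtain ⟨z, hz⟩ := exists_isZElem h
  obtain ⟨g, hg⟩ : ∃ g : G, g * z * g⁻¹ * z ≠ z * (g * z * g⁻¹) := by
    by_contra hcon
    push Not at hcon
    have hcen : Subgroup.normalClosure ({z} : Set G) ≤ Subgroup.centralizer ({z} : Set G) := by
      rw [Subgroup.normalClosure, Subgroup.closure_le]
      intro y hy
      obtain ⟨a, ha, hay⟩ := Group.mem_conjugatesOfSet_iff.mp hy
      obtain ⟨c, rfl⟩ := isConj_iff.mp hay
      rw [Set.mem_singleton_iff] at ha
      subst ha
      exact Subgroup.mem_centralizer_singleton_iff.mpr (hcon c)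
    rcases h.eq_bot_or_top_of_normal
      (inferInstance : (Subgroup.normalClosure ({z} : Set G)).Normal) with h1 | h1
    · exact hz.1 (Subgroup.mem_bot.mp (h1 ▸ Subgroup.subset_normalClosure rfl))
    · exact h.centralizer_ne_top hz.1 (top_le_iff.mp (h1 ▸ hcen))
  set M := Subgroup.closure ({z, g, g} : Set G) with hMdef
  have hM : M ≠ ⊤ := h.gen z g g
  have hzM : z ∈ M := mem_triple₁ z g g
  have hgzM : g * z * g⁻¹ ∈ M :=
    mul_mem (mul_mem (mem_triple₂ z g g) hzM) (inv_mem (mem_triple₂ z g g))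
  rcases h.exists_comp_or_pCore hM hz hzM with ⟨K, hK, hzK⟩ | h1
  · exact ⟨K, h.active_of_moved hM hK hz hzM hzK⟩
  rcases h.exists_comp_or_pCore hM (hz.conj g) hgzM with ⟨K, hK, hzK⟩ | h2
  · exact ⟨K, h.active_of_moved hM hK (hz.conj g) hgzM hzK⟩
  exact absurd (h.commute_of_hat_pCore hM (hz.conj g) hz hgzM hzM h2 h1) hg

theorem Setup.active_le_cs (h : Setup G r) {K M L : Subgroup G} (hK : Active r K) (hM : M ≠ ⊤)
    (hKM : K ≤ M) (hL : IsCompIn M L) : K ≤ cs L := by
  obtain ⟨k, hk, hkz, hkC⟩ := hK.2.2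
  exact quasisimple_le_of_conj hK.quasisimple
    hk hkC fun g hg => h.zElem_cs hM hL (hkz.conj g)
      (mul_mem (mul_mem (hKM hg) (hKM hk)) (inv_mem (hKM hg)))

theorem Setup.exists_comp_not_centralized (h : Setup G r) {K M : Subgroup G} (hK : Active r K)
    (hM : M ≠ ⊤) (hKM : K ≤ M) :
    ∃ L : Subgroup G, IsCompIn M L ∧ ¬ K ≤ Subgroup.centralizer (L : Set G) := by
  by_contra hcon
  push Not at hcon
  obtain ⟨k, hk, hkz, hkC⟩ := hK.2.2
  set f := QuotientGroup.mk' (pPrimeCore r ↥M) with hf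
  have hle : K ≤ ((pCore r (↥M ⧸ pPrimeCore r ↥M)).comap f).map M.subtype := by
    refine quasisimple_le_of_conj hK.quasisimple hk hkC fun g hg => ?_
    have hmem : g * k * g⁻¹ ∈ K := mul_mem (mul_mem hg hk) (inv_mem hg)
    rcases h.exists_comp_or_pCore hM (hkz.conj g) (hKM hmem) with ⟨L, hL, hxL⟩ | h1
    · exact absurd (hcon L hL hmem) hxL
    · exact ⟨⟨_, hKM hmem⟩, h1, rfl⟩
  set H := (K.subgroupOf M).map f with hH
  have hHle : H ≤ pCore r (↥M ⧸ pPrimeCore r ↥M) := by
    rintro _ ⟨⟨y, hyM⟩, hy, rfl⟩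
    obtain ⟨w, hw, he⟩ := hle hy
    exact (Subtype.ext he : w = ⟨y, hyM⟩) ▸ hw
  have hHp : ⁅H, H⁆ = H := by
    rw [hH, ← Subgroup.map_commutator]
    congr 1
    refine Subgroup.map_injective M.subtype_injective ?_
    rw [Subgroup.map_commutator, Subgroup.map_subgroupOf_eq_of_le hKM, hK.perfect]
  haveI : Group.IsNilpotent ↥H := (Constrained.isPGroup_pCore.to_le hHle).isNilpotent
  have hbot := eq_bot_of_perfect_of_solvable hHp inferInstance
  have h1 : f ⟨k, hKM hk⟩ ∈ H := ⟨_, hk, rfl⟩
  rw [hbot, Subgroup.mem_bot] at h1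
  exact hkz.1 (eq_one_of_mem_coreIn ((mk_eq_one_iff (hKM hk)).mp h1) (k := 1)
    (by rw [pow_one]; exact hkz.2.1))

theorem Setup.comp_active (h : Setup G r) {K M L : Subgroup G} (hK : Active r K)
    (hM : M ≠ ⊤) (hKM : K ≤ M) (hL : IsCompIn M L)
    (hKL : ¬ K ≤ Subgroup.centralizer (L : Set G)) : Active r L := by
  obtain ⟨k, hk, hkz, hkC⟩ := hK.2.2
  by_contra hA
  refine hKL (quasisimple_le_of_conj hK.quasisimple hk hkC fun g hg => ?_)
  by_contra hx
  exact hA (h.active_of_moved hM hL (hkz.conj g)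
    (hKM (mul_mem (mul_mem hg hk) (inv_mem hg))) hx)

/-- An active component of largest simple quotient maps onto every component it moves. -/
theorem Setup.full_of_max (h : Setup G r) {K M L : Subgroup G} (hK : Active r K)
    (hmax : ∀ A : Subgroup G, Active r A →
      (Subgroup.center ↥A).index ≤ (Subgroup.center ↥K).index)
    (hM : M ≠ ⊤) (hKM : K ≤ M) (hL : IsCompIn M L)
    (hKL : ¬ K ≤ Subgroup.centralizer (L : Set G)) :
    (Subgroup.center ↥L).index = (Subgroup.center ↥K).index ∧
      ∀ l ∈ L, ∃ k ∈ K, k⁻¹ * l ∈ Subgroup.centralizer (L : Set G) := by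
  have hcs := h.active_le_cs hK hM hKM hL
  set φ := (proj L).comp (Subgroup.inclusion hcs) with hφ
  have hker : φ.ker ≤ Subgroup.center ↥K := by
    refine (normal_eq_top_or_le_center hK.quasisimple _ φ.normal_ker).resolve_left fun htop =>
      hKL fun g hg => ?_
    have h1 : φ ⟨g, hg⟩ = 1 := MonoidHom.mem_ker.mp (htop ▸ Subgroup.mem_top _)
    exact (proj_eq_one_iff (hcs hg)).mp h1
  have h1 : (Subgroup.center ↥K).index ≤ Nat.card φ.range := by
    rw [← Subgroup.index_ker φ]
    exact Nat.le_of_dvd (Nat.pos_of_ne_zero Subgroup.index_ne_zero_of_finite)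
      (Subgroup.index_dvd_of_le hker)
  have h2 : Nat.card φ.range ≤ (Subgroup.center ↥L).index := by
    rw [Subgroup.index_eq_card]
    exact Subgroup.card_le_card_group _
  have h3 := hmax L (h.comp_active hK hM hKM hL hKL)
  refine ⟨by omega, fun l hl => ?_⟩
  have htop : φ.range = ⊤ := Subgroup.eq_top_of_card_eq _ (by
    rw [← Subgroup.index_eq_card]; omega)
  obtain ⟨⟨k, hk⟩, hkl⟩ : proj L ⟨l, le_cs L hl⟩ ∈ φ.range := htop ▸ Subgroup.mem_top _
  exact ⟨k, hk, (proj_eq_iff (hcs hk) (le_cs L hl)).mp hkl⟩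

/-- A component of the centraliser of `z` is a component of every proper subgroup containing it
and `z`. -/
theorem Setup.comp_of_centralized (h : Setup G r) {K : Subgroup G} (hK : Active r K)
    (hmax : ∀ A : Subgroup G, Active r A →
      (Subgroup.center ↥A).index ≤ (Subgroup.center ↥K).index)
    {z : G} (hz : IsZElem r z) (hKC : IsCompIn (Subgroup.centralizer ({z} : Set G)) K)
    {M : Subgroup G} (hM : M ≠ ⊤) (hzM : z ∈ M) (hKM : K ≤ M) : IsCompIn M K := by
  obtain ⟨L, hL, hKL⟩ := h.exists_comp_not_centralized hK hM hKM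
  obtain ⟨-, hfull⟩ := h.full_of_max hK hmax hM hKM hL hKL
  have hzcs := h.zElem_cs hM hL hz hzM
  have hzL : z ∈ Subgroup.centralizer (L : Set G) := by
    refine (proj_eq_one_iff hzcs).mp ?_
    have hcomm : ∀ q : ↥L ⧸ Subgroup.center ↥L, q * proj L ⟨z, hzcs⟩ = proj L ⟨z, hzcs⟩ * q := by
      intro q
      obtain ⟨⟨l, hl⟩, rfl⟩ := QuotientGroup.mk_surjective q
      obtain ⟨k, hk, hkl⟩ := hfull l hl
      have hkcs : k ∈ cs L := h.active_le_cs hK hM hKM hL hk
      rw [← proj_of_mem hl, ← (proj_eq_iff hkcs (le_cs L hl)).mpr hkl, ← map_mul, ← map_mul]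
      refine congrArg _ (Subtype.ext ?_)
      exact Subgroup.mem_centralizer_singleton_iff.mp (hKC.1 hk)
    haveI := hL.quasisimple.2
    rcases IsSimpleGroup.eq_bot_or_eq_top_of_normal (Subgroup.center (↥L ⧸ Subgroup.center ↥L))
      inferInstance with h1 | h1
    · exact Subgroup.mem_bot.mp (h1 ▸ Subgroup.mem_center_iff.mpr hcomm)
    · obtain ⟨a, b, hab⟩ := center_quot_ne hL.quasisimple
      exact absurd (Subgroup.mem_center_iff.mp (h1 ▸ Subgroup.mem_top b) a) hab
  set N := M ⊓ Subgroup.centralizer ({z} : Set G) with hN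
  have hLN : L ≤ N := le_inf hL.1 fun l hl =>
    Subgroup.mem_centralizer_singleton_iff.mpr (Subgroup.mem_centralizer_iff.mp hzL l hl)
  have heq : K = L := (hKC.of_le (le_inf hKM hKC.1) inf_le_right).eq_of_not_le_centralizer
    (hL.of_le hLN inf_le_left) hKL
  exact heq ▸ hL

theorem Setup.le_centralizer_of_mem_centralizer {K : Subgroup G} {z : G}
    (hz : z ∈ Subgroup.centralizer (K : Set G)) : K ≤ Subgroup.centralizer ({z} : Set G) :=
  fun g hg => Subgroup.mem_centralizer_singleton_iff.mpr (Subgroup.mem_centralizer_iff.mp hz g hg)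

/-- The final conjugation argument. -/
theorem Setup.false_of_comp_everywhere (h : Setup G r) {K : Subgroup G} (hK : Active r K) {a b : G}
    (hc : ∀ g : G, IsCompIn (Subgroup.closure ({a, b, g} : Set G)) K) : False := by
  have hkey : ∀ g : G, ∀ x ∈ K, ∀ y ∈ K, x * (g * y * g⁻¹) * x⁻¹ ∈ K.map (MulAut.conj g).toMonoidHom := by
    intro g x hx y hy
    have h1 := hc g
    have h2 := h1.conj (mem_triple₃ a b g)
    by_cases hle : K ≤ Subgroup.centralizer ((K.map (MulAut.conj g).toMonoidHom : Subgroup G) : Set G)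
    · rw [← Subgroup.mem_centralizer_iff.mp (hle hx) (g * y * g⁻¹) ⟨y, hy, rfl⟩, mul_inv_cancel_right]
      exact ⟨y, hy, rfl⟩
    · rw [← h1.eq_of_not_le_centralizer h2 hle]
      have hyg : g * y * g⁻¹ ∈ K := by
        rw [h1.eq_of_not_le_centralizer h2 hle]
        exact ⟨y, hy, rfl⟩
      exact mul_mem (mul_mem hx hyg) (inv_mem hx)
  have hnorm : Subgroup.normalClosure (K : Set G) ≤ Subgroup.normalizer (K : Set G) := by
    rw [Subgroup.normalClosure, Subgroup.closure_le]
    intro y hy
    obtain ⟨x, hx, hxy⟩ := Group.mem_conjugatesOfSet_iff.mp hy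
    obtain ⟨c, rfl⟩ := isConj_iff.mp hxy
    have hfwd : ∀ x ∈ K, ∀ w ∈ K, c * x * c⁻¹ * w * (c * x * c⁻¹)⁻¹ ∈ K := by
      intro x hx w hw
      obtain ⟨v, hv, he⟩ := hkey c⁻¹ x hx w hw
      have he' : c⁻¹ * v * c = x * (c⁻¹ * w * c) * x⁻¹ := by simpa using he
      have e : c * x * c⁻¹ * w * (c * x * c⁻¹)⁻¹ = v := by
        calc c * x * c⁻¹ * w * (c * x * c⁻¹)⁻¹ = c * (x * (c⁻¹ * w * c) * x⁻¹) * c⁻¹ := by group
          _ = v := by rw [← he']; group
      exact e ▸ hv
    rw [SetLike.mem_coe, Subgroup.mem_normalizer_iff]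
    intro w
    refine ⟨hfwd x hx w, fun hw => ?_⟩
    have h1 := hfwd x⁻¹ (inv_mem hx) _ hw
    have e : c * x⁻¹ * c⁻¹ * (c * x * c⁻¹ * w * (c * x * c⁻¹)⁻¹) * (c * x⁻¹ * c⁻¹)⁻¹ = w := by group
    rwa [e] at h1
  obtain ⟨k, hk, hkz, -⟩ := hK.2.2
  rcases h.eq_bot_or_top_of_normal
    (inferInstance : (Subgroup.normalClosure (K : Set G)).Normal) with h1 | h1
  · exact hkz.1 (Subgroup.mem_bot.mp (h1 ▸ Subgroup.subset_normalClosure hk))
  · rw [h1, top_le_iff] at hnorm
    rcases h.eq_bot_or_top_of_normal (Subgroup.normalizer_eq_top_iff.mp hnorm) with h2 | h2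
    · exact hkz.1 (Subgroup.mem_bot.mp (h2 ▸ hk))
    · exact hK.ne_top h2

theorem Setup.contradiction (h : Setup G r) : False := by
  classical
  haveI := Fintype.ofFinite (Subgroup G)
  obtain ⟨K₀, hK₀⟩ := h.exists_active
  obtain ⟨K, hKmem, hKmax⟩ := Finset.exists_max_image (Finset.univ.filter fun A => Active r A)
    (fun A : Subgroup G => (Subgroup.center ↥A).index) ⟨K₀, by simp [hK₀]⟩
  have hK : Active r K := (Finset.mem_filter.mp hKmem).2
  have hmax : ∀ A : Subgroup G, Active r A →
      (Subgroup.center ↥A).index ≤ (Subgroup.center ↥K).index := fun A hA =>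
    hKmax A (by simp [hA])
  by_cases hpair : ∃ (A : Subgroup G) (z : G), Active r A ∧
      (Subgroup.center ↥A).index = (Subgroup.center ↥K).index ∧ IsZElem r z ∧
      z ∈ Subgroup.centralizer (A : Set G)
  · obtain ⟨A, z, hA, hAi, hz, hzA⟩ := hpair
    have hmaxA : ∀ B : Subgroup G, Active r B →
        (Subgroup.center ↥B).index ≤ (Subgroup.center ↥A).index := fun B hB => hAi ▸ hmax B hB
    have hC := h.centralizer_ne_top hz.1
    have hAC : A ≤ Subgroup.centralizer ({z} : Set G) := le_centralizer_of_mem_centralizer hzA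
    obtain ⟨L, hL, hAL⟩ := h.exists_comp_not_centralized hA hC hAC
    have hLi : (Subgroup.center ↥L).index = (Subgroup.center ↥A).index :=
      (h.full_of_max hA hmaxA hC hAC hL hAL).1
    have hLa := h.comp_active hA hC hAC hL hAL
    have hmaxL : ∀ B : Subgroup G, Active r B →
        (Subgroup.center ↥B).index ≤ (Subgroup.center ↥L).index := fun B hB => hLi ▸ hmaxA B hB
    obtain ⟨a, ha, b, hb, hab⟩ := exists_pair_closure hLa.perfect
      (h.comp_facts hLa.quasisimple hLa.ne_top hLa.2.1).twoGen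
    refine h.false_of_comp_everywhere hLa (a := a * z) (b := b) fun g => ?_
    set M := Subgroup.closure ({a * z, b, g} : Set G) with hM
    have hazM : a * z ∈ M := mem_triple₁ _ _ _
    have hbM : b ∈ M := mem_triple₂ _ _ _
    have hLM : L ≤ M := by
      have hzc : ∀ l ∈ L, Commute z l := fun l hl =>
        (Subgroup.mem_centralizer_singleton_iff.mp (hL.1 hl)).symm
      set T := Subgroup.closure ({a * z, b} : Set G) with hT
      have hTM : T ≤ M := (Subgroup.closure_le M).mpr (by rintro y (rfl | rfl) <;> assumption)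
      have hTz : Subgroup.zpowers z ≤ Subgroup.centralizer (T : Set G) := by
        rw [Subgroup.zpowers_le]
        have hle : T ≤ Subgroup.centralizer ({z} : Set G) := by
          refine (Subgroup.closure_le _).mpr ?_
          rintro y (rfl | rfl)
          · exact Subgroup.mem_centralizer_singleton_iff.mpr
              (((hzc a ha).mul_right (Commute.refl z)).symm.eq)
          · exact hL.1 hb
        exact Subgroup.mem_centralizer_iff.mpr fun t ht =>
          Subgroup.mem_centralizer_singleton_iff.mp (hle ht)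
      have hLT : L ≤ T ⊔ Subgroup.zpowers z := by
        refine hab.trans ((Subgroup.closure_le _).mpr ?_)
        rintro y (rfl | rfl)
        · have e : y = y * z * z⁻¹ := by group
          rw [SetLike.mem_coe, e]
          exact mul_mem (Subgroup.mem_sup_left (Subgroup.subset_closure (by simp)))
            (Subgroup.mem_sup_right (inv_mem (Subgroup.mem_zpowers z)))
        · exact Subgroup.mem_sup_left (Subgroup.subset_closure (by simp))
      have hnorm : Subgroup.zpowers z ≤ Subgroup.normalizer (T : Set G) :=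
        hTz.trans (Subgroup.centralizer_le_normalizer _)
      rw [← hLa.perfect, Subgroup.commutator_le]
      intro u hu v hv
      have hu' := hLT hu
      have hv' := hLT hv
      rw [← SetLike.mem_coe, Subgroup.coe_mul_of_right_le_normalizer_left T _ hnorm] at hu' hv'
      obtain ⟨t, ht, s, hs, rfl⟩ := Set.mem_mul.mp hu'
      obtain ⟨t', ht', s', hs', rfl⟩ := Set.mem_mul.mp hv'
      have hst : ∀ {s t : G}, s ∈ Subgroup.zpowers z → t ∈ T → Commute s t := fun hs ht =>
        (Subgroup.mem_centralizer_iff.mp (hTz hs) _ ht).symm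
      have hss : Commute s s' := by
        obtain ⟨i, rfl⟩ := Subgroup.mem_zpowers_iff.mp hs
        obtain ⟨j, rfl⟩ := Subgroup.mem_zpowers_iff.mp hs'
        exact Commute.zpow_zpow_self z i j
      rw [(hst hs ht).symm.eq, (hst hs' ht').symm.eq,
        commutator_central_mul (hst hs ht) (hst hs ht') (hst hs' ht) (hst hs' ht') hss]
      exact hTM (mul_mem (mul_mem (mul_mem ht ht') (inv_mem ht)) (inv_mem ht'))
    have hzM : z ∈ M := by
      have h1 := mul_mem (inv_mem (hLM ha)) hazM
      rwa [inv_mul_cancel_left] at h1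
    exact h.comp_of_centralized hLa hmaxL hz hL (h.gen _ _ _) hzM hLM
  · push Not at hpair
    obtain ⟨a, ha, b, hb, hab⟩ := exists_pair_closure hK.perfect
      (h.comp_facts hK.quasisimple hK.ne_top hK.2.1).twoGen
    refine h.false_of_comp_everywhere hK (a := a) (b := b) fun g => ?_
    set M := Subgroup.closure ({a, b, g} : Set G) with hMdef
    have hM : M ≠ ⊤ := h.gen a b g
    have hKM : K ≤ M := hab.trans (Subgroup.closure_mono (by
      rintro y (rfl | rfl) <;> simp))
    obtain ⟨L, hL, hKL⟩ := h.exists_comp_not_centralized hK hM hKM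
    have hLi := (h.full_of_max hK hmax hM hKM hL hKL).1
    have hLa := h.comp_active hK hM hKM hL hKL
    have hothers : ∀ L' : Subgroup G, IsCompIn M L' → ¬ K ≤ Subgroup.centralizer (L' : Set G) →
        L' = L := by
      intro L' hL' hKL'
      by_contra hne
      obtain ⟨k', hk', hk'z, -⟩ := (h.comp_active hK hM hKM hL' hKL').2.2
      refine hpair L k' hLa hLi hk'z ?_
      by_contra hk'L
      exact hne (hL'.eq_of_not_le_centralizer hL fun hle => hk'L (hle hk'))
    -- `K` lies in `L`
    set f := QuotientGroup.mk' (pPrimeCore r ↥M) with hf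
    set O := pCore r (↥M ⧸ pPrimeCore r ↥M) with hO
    set Lh := (L.subgroupOf M).map f with hLh
    obtain ⟨k, hk, hkz, hkC⟩ := hK.2.2
    have hKcs : ∀ y ∈ K, ∀ L', IsCompIn M L' → L' ≠ L → y ∈ Subgroup.centralizer (L' : Set G) :=
      fun y hy L' hL' hne => by
        by_contra hc
        exact hne (hothers L' hL' fun hle => hc (hle hy))
    have hKle : (K.subgroupOf M).map f ≤ Lh ⊔ O := by
      have hle : K ≤ ((Lh ⊔ O).comap f).map M.subtype := by
        refine quasisimple_le_of_conj hK.quasisimple hk hkC fun g hg => ?_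
        set x := g * k * g⁻¹ with hx
        have hxK : x ∈ K := mul_mem (mul_mem hg hk) (inv_mem hg)
        have hxz : IsZElem r x := hkz.conj g
        obtain ⟨l, hl, c, hc, he⟩ := mem_cs_iff.mp (h.zElem_cs hM hL hxz (hKM hxK))
        have hlM : l ∈ M := hL.1 hl
        have hcM : c ∈ M := by
          have := mul_mem (inv_mem hlM) (hKM hxK)
          rwa [he, inv_mul_cancel_left] at this
        refine ⟨⟨x, hKM hxK⟩, ?_, rfl⟩
        show f ⟨x, hKM hxK⟩ ∈ Lh ⊔ O
        rw [show (⟨x, hKM hxK⟩ : M) = ⟨l, hlM⟩ * ⟨c, hcM⟩ from Subtype.ext he, map_mul]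
        refine mul_mem (Subgroup.mem_sup_left ⟨_, hl, rfl⟩) (Subgroup.mem_sup_right ?_)
        have hlF : f ⟨l, hlM⟩ ∈ generalizedFittingSubgroup (↥M ⧸ pPrimeCore r ↥M) := by
          rcases map_eq_bot_or_isComponent f (QuotientGroup.mk'_surjective _) hL.2 with h1 | h1
          · have : f ⟨l, hlM⟩ ∈ Lh := ⟨_, hl, rfl⟩
            rw [hLh, h1, Subgroup.mem_bot] at this
            rw [this]
            exact one_mem _
          · exact layer_le_generalizedFitting (le_layer h1 ⟨_, hl, rfl⟩)
        have hcF : f ⟨c, hcM⟩ ∈ generalizedFittingSubgroup (↥M ⧸ pPrimeCore r ↥M) := by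
          have hxF := h.zElem_fstar hM hxz (hKM hxK)
          rw [show (⟨x, hKM hxK⟩ : M) = ⟨l, hlM⟩ * ⟨c, hcM⟩ from Subtype.ext he, map_mul] at hxF
          have := mul_mem (inv_mem hlF) hxF
          rwa [inv_mul_cancel_left] at this
        refine mem_pCore_of_centralizes_comps (hat_core_eq_bot M) hcF fun Q hQ => ?_
        by_cases hQL : Q = Lh
        · rw [hQL]
          refine Subgroup.mem_centralizer_iff.mpr ?_
          rintro _ ⟨⟨y, hyM⟩, hy, rfl⟩
          rw [← map_mul, ← map_mul]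
          exact congrArg f (Subtype.ext (Subgroup.mem_centralizer_iff.mp hc y hy))
        · have hlQ : f ⟨l, hlM⟩ ∈ Subgroup.centralizer (Q : Set _) := by
            rcases map_eq_bot_or_isComponent f (QuotientGroup.mk'_surjective _) hL.2 with h1 | h1
            · have : f ⟨l, hlM⟩ ∈ Lh := ⟨_, hl, rfl⟩
              rw [hLh, h1, Subgroup.mem_bot] at this
              rw [this]
              exact one_mem _
            · exact Subgroup.commutator_eq_bot_iff_le_centralizer.mp
                (commutator_eq_bot_of_ne h1 hQ (Ne.symm hQL)) ⟨_, hl, rfl⟩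
          have hxQ : f ⟨x, hKM hxK⟩ ∈ Subgroup.centralizer (Q : Set _) := by
            by_contra hxQ
            obtain ⟨D, hD, hDQ⟩ : ∃ D : Subgroup G, IsCompIn M D ∧ (D.subgroupOf M).map f = Q :=
              h.exists_comp_lift hM hxz (hKM hxK) hQ hxQ
            refine hQL ?_
            by_contra hne
            refine hxQ ?_
            have hxD : x ∈ Subgroup.centralizer (D : Set G) := hKcs x hxK D hD fun e =>
              hne (by rw [← hDQ, e])
            refine Subgroup.mem_centralizer_iff.mpr ?_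
            rw [← hDQ]
            rintro _ ⟨⟨y, hyM⟩, hy, rfl⟩
            rw [← map_mul, ← map_mul]
            exact congrArg f (Subtype.ext (Subgroup.mem_centralizer_iff.mp hxD y hy))
          rw [show (⟨x, hKM hxK⟩ : M) = ⟨l, hlM⟩ * ⟨c, hcM⟩ from Subtype.ext he, map_mul] at hxQ
          have := mul_mem (inv_mem hlQ) hxQ
          rwa [inv_mul_cancel_left] at this
      rintro _ ⟨⟨y, hyM⟩, hy, rfl⟩
      obtain ⟨w, hw, he⟩ := hle hy
      exact (Subtype.ext he : w = ⟨y, hyM⟩) ▸ hw
    have hLperf : ⁅Lh, Lh⁆ = Lh := by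
      rw [hLh, ← Subgroup.map_commutator, commutator_self_of_isComponent hL.2]
    have hKh : (K.subgroupOf M).map f ≤ Lh := by
      haveI : Group.IsNilpotent ↥O := Constrained.isPGroup_pCore.isNilpotent
      have hperfK : ⁅(K.subgroupOf M).map f, (K.subgroupOf M).map f⁆ = (K.subgroupOf M).map f := by
        rw [← Subgroup.map_commutator]
        congr 1
        refine Subgroup.map_injective M.subtype_injective ?_
        rw [Subgroup.map_commutator, Subgroup.map_subgroupOf_eq_of_le hKM, hK.perfect]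
      have hLO : ⁅Lh, O⁆ = ⊥ := by
        rcases map_eq_bot_or_isComponent f (QuotientGroup.mk'_surjective _) hL.2 with h1 | h1
        · rw [hLh, h1, Subgroup.commutator_bot_left]
        · exact commutator_component_pCore h1
      have hstep : ∀ n : ℕ, (K.subgroupOf M).map f ≤
          Lh ⊔ (derivedSeries ↥O n).map O.subtype := by
        intro n
        induction n with
        | zero => rwa [derivedSeries_zero, ← MonoidHom.range_eq_map, Subgroup.range_subtype]
        | succ n ih =>
          rw [← hperfK, Subgroup.commutator_le]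
          intro u hu v hv
          have hDle : (derivedSeries ↥O n).map O.subtype ≤ O := Subgroup.map_subtype_le _
          have hnorm : (derivedSeries ↥O n).map O.subtype ≤ Subgroup.normalizer (Lh : Set _) :=
            (hDle.trans (Subgroup.commutator_eq_bot_iff_le_centralizer.mp
              (commutator_eq_bot_comm.mp hLO))).trans (Subgroup.centralizer_le_normalizer _)
          have hu' := ih hu
          have hv' := ih hv
          rw [← SetLike.mem_coe, Subgroup.coe_mul_of_right_le_normalizer_left Lh _ hnorm] at hu' hv'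
          obtain ⟨t, ht, s, hs, rfl⟩ := Set.mem_mul.mp hu'
          obtain ⟨t', ht', s', hs', rfl⟩ := Set.mem_mul.mp hv'
          have hc : ∀ {t s}, t ∈ Lh → s ∈ (derivedSeries ↥O n).map O.subtype → Commute t s :=
            fun ht hs => commute_of_commutator_eq_bot hLO ht (hDle hs)
          have e : ⁅t * s, t' * s'⁆ = ⁅t, t'⁆ * ⁅s, s'⁆ := by
            have c1 : Commute s t' := (hc ht' hs).symm
            have c2 : Commute s' t := (hc ht hs').symm
            rw [commutatorElement_def, commutatorElement_def, commutatorElement_def, mul_inv_rev,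
              mul_inv_rev]
            have c3 : Commute (s * s' * s⁻¹ * s'⁻¹) t'⁻¹ := by
              have h1 : Commute s t'⁻¹ := c1.inv_right
              have h2 : Commute s' t'⁻¹ := (hc ht' hs').symm.inv_right
              exact ((h1.mul_left h2).mul_left h1.inv_left).mul_left h2.inv_left
            have c4 : Commute (s * s' * s⁻¹) t⁻¹ := by
              have h1 : Commute s t⁻¹ := (hc ht hs).symm.inv_right
              exact (h1.mul_left c2.inv_right).mul_left h1.inv_left
            calc t * s * (t' * s') * (s⁻¹ * t⁻¹) * (s'⁻¹ * t'⁻¹)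
                = t * (s * t') * s' * s⁻¹ * t⁻¹ * s'⁻¹ * t'⁻¹ := by group
              _ = t * t' * ((s * s' * s⁻¹) * t⁻¹) * s'⁻¹ * t'⁻¹ := by rw [c1.eq]; group
              _ = t * t' * t⁻¹ * ((s * s' * s⁻¹ * s'⁻¹) * t'⁻¹) := by rw [c4.eq]; group
              _ = t * t' * t⁻¹ * t'⁻¹ * (s * s' * s⁻¹ * s'⁻¹) := by rw [c3.eq]; group
          rw [e]
          refine mul_mem (Subgroup.mem_sup_left
            (mul_mem (mul_mem (mul_mem ht ht') (inv_mem ht)) (inv_mem ht')))
            (Subgroup.mem_sup_right ?_)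
          rw [derivedSeries_succ, Subgroup.map_commutator]
          exact Subgroup.commutator_mem_commutator hs hs'
      haveI : Group.IsSolvable ↥O := inferInstance
      obtain ⟨n, hn⟩ := (inferInstance : Group.IsSolvable ↥O).solvable
      have := hstep n
      rwa [hn, Subgroup.map_bot, sup_bot_eq] at this
    have hKR : ∀ y ∈ K, ∀ ρ ∈ coreIn r M, ρ * y = y * ρ := by
      have hle : K ≤ Subgroup.centralizer (coreIn r M : Set G) :=
        quasisimple_le_of_conj hK.quasisimple hk hkC fun g hg =>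
          Subgroup.mem_centralizer_iff.mpr fun ρ hρ =>
            h.commute_coreIn (hkz.conj g) hM (hKM (mul_mem (mul_mem hg hk) (inv_mem hg))) hρ
      exact fun y hy ρ hρ => Subgroup.mem_centralizer_iff.mp (hle hy) ρ hρ
    have hLR : ∀ l ∈ L, ∀ ρ ∈ coreIn r M, ρ * l = l * ρ := by
      obtain ⟨x, hx, hxz, hxL⟩ := hLa.2.2
      intro l hl ρ hρ
      exact Subgroup.mem_centralizer_iff.mp
        (hL.le_centralizer_coreIn h hM hxz (hL.1 hx) hxL hl) ρ hρ
    have hdec : ∀ u ∈ K, ∃ l ∈ L, ∃ ρ ∈ coreIn r M, u = ρ * l := by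
      intro u hu
      obtain ⟨l, hl, he⟩ := hKh ⟨⟨u, hKM hu⟩, hu, rfl⟩
      refine ⟨l, hl, u * (l : G)⁻¹, (mk_eq_one_iff (mul_mem (hKM hu) (inv_mem l.2))).mp ?_, by group⟩
      show f (⟨u, hKM hu⟩ * l⁻¹) = 1
      rw [map_mul, map_inv, he, mul_inv_cancel]
    have hKL' : K ≤ L := by
      rw [← hK.perfect, Subgroup.commutator_le]
      intro u hu v hv
      obtain ⟨l, hl, ρ, hρ, rfl⟩ := hdec u hu
      obtain ⟨l', hl', ρ', hρ', rfl⟩ := hdec v hv
      have hρρ' : Commute ρ ρ' := by
        have h1 : ρ' * (ρ * l) = ρ * l * ρ' := hKR _ hu ρ' hρ'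
        have h2 : ρ' * l = l * ρ' := hLR l hl ρ' hρ'
        rw [mul_assoc ρ l ρ', ← h2, ← mul_assoc, ← mul_assoc] at h1
        exact (mul_right_cancel h1).symm
      rw [commutator_central_mul (hLR l hl ρ hρ) (hLR l' hl' ρ hρ) (hLR l hl ρ' hρ')
        (hLR l' hl' ρ' hρ') hρρ']
      exact mul_mem (mul_mem (mul_mem hl hl') (inv_mem hl)) (inv_mem hl')
    have hLK : L ≤ K := by
      obtain ⟨-, hfull⟩ := h.full_of_max hK hmax hM hKM hL hKL
      rw [← hL.perfect, Subgroup.commutator_le]
      intro u hu v hv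
      obtain ⟨a', ha', hau⟩ := hfull u hu
      obtain ⟨b', hb', hbv⟩ := hfull v hv
      have hcu : ∀ l ∈ L, Commute (a'⁻¹ * u) l := fun l hl =>
        (Subgroup.mem_centralizer_iff.mp hau l hl).symm
      have hcv : ∀ l ∈ L, Commute (b'⁻¹ * v) l := fun l hl =>
        (Subgroup.mem_centralizer_iff.mp hbv l hl).symm
      have e1 : u = a'⁻¹ * u * a' := by
        rw [(hcu a' (hKL' ha')).eq, mul_inv_cancel_left]
      have e2 : v = b'⁻¹ * v * b' := by
        rw [(hcv b' (hKL' hb')).eq, mul_inv_cancel_left]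
      rw [e1, e2, commutator_central_mul (hcu a' (hKL' ha')) (hcu b' (hKL' hb'))
        (hcv a' (hKL' ha')) (hcv b' (hKL' hb')) (hcu _ (mul_mem (inv_mem (hKL' hb')) hv))]
      exact mul_mem (mul_mem (mul_mem ha' hb') (inv_mem ha')) (inv_mem hb')
    exact le_antisymm hLK hKL' ▸ hL

end CfsgLib.Powell
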