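import Cfsg.Agent.Powell16.Triple
import Cfsg.Agent.ZStar.Theorem
import Cfsg.Agent.Blocks.PrimeGram.BlockEquation
import Cfsg.Agent.Transfer.NormalPComplement

/-!
An element of order `r` is not isolated: the principal `r`-block would violate weak orthogonality.
-/

set_option autoImplicit false
set_option linter.style.haveILetI false

open scoped commutatorElement Pointwise
open Cfsg CfsgLib.Blocks

namespace CfsgLib.Powell

universe u

variable {G : Type u} [Group G] {r : ℕ} [Finite G] [hr : Fact r.Prime]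

open CfsgLib.ZStar in
omit hr in
/-- The class relation: if `χ` is constant on `x·cl(y)` then it is multiplicative there. -/
theorem mul_eq_of_class_const {x y : G} (χ : IrrCharacter G)
    (h : ∀ v, IsConj y v → (χ : G → ℂ) (x * v) = (χ : G → ℂ) (x * y)) :
    (χ : G → ℂ) x * (χ : G → ℂ) y = (χ : G → ℂ) 1 * (χ : G → ℂ) (x * y) := by
  classical
  haveI := Fintype.ofFinite G
  set T := CfsgLib.ZStar.classSum ℂ y with hT
  have hTc : T ∈ Subring.center (CfsgLib.ZStar.GA ℂ G) := CfsgLib.ZStar.classSum_mem_center ℂ y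
  set k : ℂ := ((Subgroup.centralizer ({y} : Set G)).index : ℂ) with hk
  have hk0 : k ≠ 0 := Nat.cast_ne_zero.mpr Subgroup.index_ne_zero_of_finite
  have hd := Chars.map_one_ne_zero χ
  have h1 : chiHat (χ : G → ℂ) (MonoidAlgebra.single x 1 * T) =
      k * (χ : G → ℂ) y / (χ : G → ℂ) 1 * (χ : G → ℂ) x := by
    rw [Subring.mem_center_iff.mp hTc, exists_scalar χ hTc, chiHat_single, one_mul, hT,
      omega_classSum, centralChar, ← hk]
  have hcount : ((Finset.univ.filter fun v => IsConj y v).card : ℂ) = k := by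
    rw [hk, ← Chars.card_carrier_eq_index, ← Fintype.card_subtype, ← Nat.card_eq_fintype_card]
    congr 1
  have h2 : chiHat (χ : G → ℂ) (MonoidAlgebra.single x 1 * T) = k * (χ : G → ℂ) (x * y) := by
    rw [chiHat_eq_sum]
    simp only [MonoidAlgebra.coeff_single_mul_apply, one_mul]
    rw [Fintype.sum_equiv (Equiv.mulLeft x⁻¹) (fun g => T.coeff (x⁻¹ * g) * (χ : G → ℂ) g)
      (fun v => T.coeff v * (χ : G → ℂ) (x * v)) (fun g => by simp)]
    simp only [hT, CfsgLib.ZStar.classSum, CfsgLib.ZStar.coeff_mk, ite_mul, one_mul, zero_mul]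
    rw [← Finset.sum_filter, Finset.sum_congr rfl (g := fun _ => (χ : G → ℂ) (x * y))
      (fun v hv => h v (Finset.mem_filter.mp hv).2),
      Finset.sum_const, nsmul_eq_mul, hcount]
  rw [h1] at h2
  field_simp at h2
  linear_combination h2

/-- A character of absolute value equal to its degree at a noncentral element forces triviality. -/
theorem Setup.eq_oneChar_of_norm (h : Setup G r) {χ : IrrCharacter G} {x : G} (hx : x ≠ 1)
    (hn : ‖(χ : G → ℂ) x‖ = ‖(χ : G → ℂ) 1‖) : χ = Chars.oneChar G := by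
  obtain ⟨n, ρ, hρ, hχ⟩ := χ.2
  have h1 : (χ : G → ℂ) 1 = n := by rw [← hχ, Representation.char_one]; simp
  have hn0 : n ≠ 0 := fun e => Chars.map_one_ne_zero χ (by rw [h1, e, Nat.cast_zero])
  obtain ⟨c, hc⟩ : ∃ c : ℂ, ρ x = c • 1 := ⟨_, Chars.rep_eq_smul_of_norm_character_eq ρ hn0 (by
    rw [hχ, hn, h1, Complex.norm_natCast])⟩
  obtain ⟨g, hg⟩ : ∃ g : G, g * x ≠ x * g := by
    by_contra hcon
    push Not at hcon
    exact hx (h.eq_one_of_central hcon)
  have hne : g * x * g⁻¹ * x⁻¹ ≠ 1 := by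
    rwa [Ne, mul_inv_eq_one, mul_inv_eq_iff_eq_mul]
  refine CfsgLib.ZStar.eq_oneChar_of_apply_eq (t := g * x * g⁻¹ * x⁻¹) (fun N hN ht => ?_) ?_
  · rcases h.eq_bot_or_top_of_normal hN with h2 | h2
    · exact absurd (Subgroup.mem_bot.mp (h2 ▸ ht)) hne
    · exact h2
  · have hρ1 : ρ (g * x * g⁻¹ * x⁻¹) = 1 := by
      rw [map_mul, map_mul, map_mul, hc, mul_smul_comm, mul_one, smul_mul_assoc, ← map_mul,
        mul_inv_cancel, map_one, ← hc, ← map_mul, mul_inv_cancel, map_one]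
    rw [← hχ]
    simp only [Representation.character, hρ1, map_one]

section isolated

variable (h : Setup G r) {x : G} (hx : IsZElem r x) (hiso : ∀ g : G, CoreComm r x g)
include h hx hiso

theorem iso_conj_eq {g : G} (hg : g * x * g⁻¹ * x = x * (g * x * g⁻¹)) : g * x * g⁻¹ = x := by
  have hc : (cm x g) ^ r ^ 1 = 1 := by
    have h1 : Commute (g * x * g⁻¹) x⁻¹ := Commute.inv_right hg
    rw [pow_one, cm, h1.mul_pow, conj_pow, inv_pow, hx.2.1, inv_one, mul_one, mul_one,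
      mul_inv_cancel]
  have h2 := eq_one_of_mem_coreIn (hiso g) hc
  exact mul_inv_eq_one.mp h2

theorem iso_central {S : Subgroup G} (hS : IsPGroup r S) (hxS : x ∈ S) {u : G} (huS : u ∈ S) :
    u * x = x * u := by
  have hle : Subgroup.closure ({x, u} : Set G) ≤ S := (Subgroup.closure_le S).mpr (by
    rintro y (rfl | rfl) <;> assumption)
  obtain ⟨k, hk⟩ := exists_pow_eq_one_of_mem hS (hle (coreIn_le _ (hiso u)))
  have h2 := eq_one_of_mem_coreIn (hiso u) hk
  rw [cm, mul_inv_eq_one, mul_inv_eq_iff_eq_mul] at h2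
  exact h2

theorem iso_hat_comm {M : Subgroup G} (hM : M ≠ ⊤) (hxM : x ∈ M) (g : M) :
    QuotientGroup.mk' (pPrimeCore r ↥M) g * QuotientGroup.mk' (pPrimeCore r ↥M) ⟨x, hxM⟩ =
      QuotientGroup.mk' (pPrimeCore r ↥M) ⟨x, hxM⟩ * QuotientGroup.mk' (pPrimeCore r ↥M) g := by
  have h1 := (h.coreComm_iff hx hM hxM g.2).mp (hiso g)
  have h2 : QuotientGroup.mk' (pPrimeCore r ↥M) (g * ⟨x, hxM⟩ * g⁻¹ * ⟨x, hxM⟩⁻¹) = 1 :=
    (mk_eq_one_iff (g * ⟨x, hxM⟩ * g⁻¹ * ⟨x, hxM⟩⁻¹).2).mpr h1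
  rw [map_mul, map_mul, map_mul, map_inv, map_inv, mul_inv_eq_one, mul_inv_eq_iff_eq_mul] at h2
  exact h2

open CfsgLib.ZStar in
theorem iso_apply_eq {M₀ : Ideal AlgInt} [M₀.IsMaximal] (hM₀ : IsPModular r M₀) {χ : IrrCharacter G}
    (hχ : χ ∈ principalBlock M₀ G) {y : G} {k : ℕ} (hy : y ^ r ^ k = 1) (hxy : x * y = y * x)
    (hne : x * y ≠ 1) {v : G} (hv : IsConj y v) :
    (χ : G → ℂ) (x * v) = (χ : G → ℂ) (x * y) := by
  obtain ⟨c₀, hc₀⟩ := isConj_iff.mp hv
  set N := r ^ (k + 1) with hN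
  have hxN : x ^ N = 1 := by rw [hN, pow_succ', pow_mul, hx.2.1, one_pow]
  have hvN : v ^ N = 1 := by rw [← hc₀, conj_pow, hN, pow_succ, pow_mul, hy, one_pow, mul_one,
    mul_inv_cancel]
  set M := Subgroup.closure ({x, v, v} : Set G) with hMdef
  have hM : M ≠ ⊤ := h.gen x v v
  have hxM : x ∈ M := mem_triple₁ x v v
  have hvM : v ∈ M := mem_triple₂ x v v
  set w := x * v with hw
  -- the image of `w` is an `r`-element in every proper subgroup containing `x` and `v`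
  have hwN : ∀ L : Subgroup G, L ≠ ⊤ → ∀ (hxL : x ∈ L) (hvL : v ∈ L),
      QuotientGroup.mk' (pPrimeCore r ↥L) ⟨w, mul_mem hxL hvL⟩ ^ N = 1 := by
    intro L hL hxL hvL
    have e : (⟨w, mul_mem hxL hvL⟩ : L) = ⟨x, hxL⟩ * ⟨v, hvL⟩ := rfl
    have hcm : Commute (QuotientGroup.mk' (pPrimeCore r ↥L) ⟨x, hxL⟩)
        (QuotientGroup.mk' (pPrimeCore r ↥L) ⟨v, hvL⟩) :=
      (iso_hat_comm h hx hiso hL hxL ⟨v, hvL⟩).symm
    rw [e, map_mul, hcm.mul_pow, ← map_pow, ← map_pow,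
      show (⟨x, hxL⟩ : L) ^ N = 1 from Subtype.ext (by simpa using hxN),
      show (⟨v, hvL⟩ : L) ^ N = 1 from Subtype.ext (by simpa using hvN), map_one, one_mul]
  have hs0 : w ^ N ∈ coreIn r M := (mk_eq_one_iff (pow_mem (mul_mem hxM hvM) N)).mp (by
    have := hwN M hM hxM hvM
    rwa [← map_pow] at this)
  have hcop : Nat.Coprime N (orderOf (w ^ N)) := by
    refine Nat.Coprime.pow_left _ (hr.out.coprime_iff_not_dvd.mpr fun hd =>
      not_dvd_coreIn M (hd.trans ?_))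
    have := orderOf_dvd_natCard (⟨w ^ N, hs0⟩ : coreIn r M)
    rwa [Subgroup.orderOf_mk] at this
  obtain ⟨e, he1, he2⟩ := Nat.chineseRemainder hcop 1 0
  set z := w ^ e with hz
  set s := z⁻¹ * w with hs
  have hzN : z ^ N = 1 := by
    rw [hz, ← pow_mul, mul_comm, pow_mul]
    exact orderOf_dvd_iff_pow_eq_one.mp (Nat.modEq_zero_iff_dvd.mp he2)
  have hsR : ∀ L : Subgroup G, L ≠ ⊤ → x ∈ L → v ∈ L → s ∈ coreIn r L := by
    intro L hL hxL hvL
    have hwL : w ∈ L := mul_mem hxL hvL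
    refine (mk_eq_one_iff (mul_mem (inv_mem (pow_mem hwL e)) hwL)).mp ?_
    set q := QuotientGroup.mk' (pPrimeCore r ↥L) ⟨w, hwL⟩ with hq
    have hq1 : q ^ e = q := by
      conv_rhs => rw [← pow_one q]
      exact pow_eq_pow_iff_modEq.mpr (he1.of_dvd (orderOf_dvd_of_pow_eq_one (hwN L hL hxL hvL)))
    show QuotientGroup.mk' (pPrimeCore r ↥L) ((⟨w, hwL⟩ ^ e)⁻¹ * ⟨w, hwL⟩) = 1
    rw [map_mul, map_inv, map_pow, ← hq, hq1, inv_mul_cancel]
  -- a conjugate of `x` in an `r`-group with `v`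
  have hvp : IsPGroup r (Subgroup.zpowers (⟨v, hvM⟩ : M)) :=
    isPGroup_zpowers_of_pow (k := k + 1) (Subtype.ext (by simpa using hvN))
  have hxp : IsPGroup r (Subgroup.zpowers (⟨x, hxM⟩ : M)) :=
    isPGroup_zpowers_of_pow (k := k + 1) (Subtype.ext (by simpa using hxN))
  obtain ⟨Qv, hQv⟩ := hvp.exists_le_sylow
  obtain ⟨Qx, hQx⟩ := hxp.exists_le_sylow
  obtain ⟨m, hm⟩ := MulAction.exists_smul_eq (↥M) Qv Qx
  have hv'Q : m * ⟨v, hvM⟩ * m⁻¹ ∈ (Qx : Subgroup ↥M) := by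
    rw [← hm]
    exact Subgroup.smul_mem_pointwise_smul _ (MulAut.conj m) _ (hQv (Subgroup.mem_zpowers _))
  set v' : G := (m : G) * v * (m : G)⁻¹ with hv'
  have hxv' : v' * x = x * v' :=
    iso_central h hx hiso (Qx.2.map M.subtype) ⟨_, hQx (Subgroup.mem_zpowers _), rfl⟩
      ⟨_, hv'Q, rfl⟩
  -- `x * v'` is conjugate to `x * y`
  set g₀ : G := (m : G) * c₀ with hg₀
  have hv'g : g₀ * y * g₀⁻¹ = v' := by rw [hg₀, hv', ← hc₀]; group
  obtain ⟨d, hd⟩ : ∃ d : G, d * (x * y) * d⁻¹ = x * v' := by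
    set C := Subgroup.centralizer ({v'} : Set G) with hC
    set x₀ := g₀ * x * g₀⁻¹ with hx₀
    have hxC : x ∈ C := Subgroup.mem_centralizer_singleton_iff.mpr hxv'.symm
    have hx₀C : x₀ ∈ C := by
      rw [hC, Subgroup.mem_centralizer_singleton_iff, hx₀, ← hv'g]
      calc g₀ * x * g₀⁻¹ * (g₀ * y * g₀⁻¹) = g₀ * (x * y) * g₀⁻¹ := by group
        _ = g₀ * (y * x) * g₀⁻¹ := by rw [hxy]
        _ = g₀ * y * g₀⁻¹ * (g₀ * x * g₀⁻¹) := by group
    have hx₀r : x₀ ^ r ^ 1 = 1 := by rw [pow_one, hx₀, conj_pow, hx.2.1, mul_one, mul_inv_cancel]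
    obtain ⟨Qa, hQa⟩ := (isPGroup_zpowers_of_pow (x := (⟨x, hxC⟩ : C)) (k := 1)
      (Subtype.ext (by simpa using hx.2.1))).exists_le_sylow
    obtain ⟨Qb, hQb⟩ := (isPGroup_zpowers_of_pow (x := (⟨x₀, hx₀C⟩ : C)) (k := 1)
      (Subtype.ext (by simpa using hx₀r))).exists_le_sylow
    obtain ⟨c, hc⟩ := MulAction.exists_smul_eq (↥C) Qb Qa
    have hmem : c * ⟨x₀, hx₀C⟩ * c⁻¹ ∈ (Qa : Subgroup ↥C) := by
      rw [← hc]
      exact Subgroup.smul_mem_pointwise_smul _ (MulAut.conj c) _ (hQb (Subgroup.mem_zpowers _))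
    have hcomm := iso_central h hx hiso (Qa.2.map C.subtype)
      ⟨_, hQa (Subgroup.mem_zpowers _), rfl⟩ ⟨_, hmem, rfl⟩
    have hcx : ((c : G) * g₀) * x * ((c : G) * g₀)⁻¹ = x := by
      refine iso_conj_eq h hx hiso ?_
      have e : ((c : G) * g₀) * x * ((c : G) * g₀)⁻¹ = (c : G) * x₀ * (c : G)⁻¹ := by
        rw [hx₀]; group
      rw [e]
      exact hcomm
    have hcv : (c : G) * v' * (c : G)⁻¹ = v' :=
      mul_inv_eq_iff_eq_mul.mpr (Subgroup.mem_centralizer_singleton_iff.mp c.2)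
    refine ⟨(c : G) * g₀, ?_⟩
    calc ((c : G) * g₀) * (x * y) * ((c : G) * g₀)⁻¹
        = (((c : G) * g₀) * x * ((c : G) * g₀)⁻¹) * ((c : G) * (g₀ * y * g₀⁻¹) * (c : G)⁻¹) := by
          group
      _ = x * v' := by rw [hcx, hv'g, hcv]
  -- `z` is conjugate to `x * v'`
  have hzM : z ∈ M := pow_mem (mul_mem hxM hvM) e
  set w₁ : G := (m : G)⁻¹ * (x * v') * (m : G) with hw₁
  have hw₁M : w₁ ∈ M :=
    mul_mem (mul_mem (inv_mem m.2) (mul_mem hxM (mul_mem (mul_mem m.2 hvM) (inv_mem m.2)))) m.2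
  have hw₁N : w₁ ^ N = 1 := by
    have hv'N : v' ^ N = 1 := by rw [hv', conj_pow, hvN, mul_one, mul_inv_cancel]
    have h1 : (x * v') ^ N = 1 := by
      rw [Commute.mul_pow (hxv'.symm : x * v' = v' * x), hxN, hv'N, one_mul]
    have h2 : w₁ = MulAut.conj (m : G)⁻¹ (x * v') := by simp [hw₁]
    rw [h2, ← map_pow, h1, map_one]
  set f := QuotientGroup.mk' (pPrimeCore r ↥M) with hf
  have hfw : f ⟨w₁, hw₁M⟩ = f ⟨w, mul_mem hxM hvM⟩ := by
    have e : (⟨w₁, hw₁M⟩ : M) = m⁻¹ * (⟨x, hxM⟩ * (m * ⟨v, hvM⟩ * m⁻¹)) * m :=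
      Subtype.ext (by simp [hw₁, hv'])
    have hcm := iso_hat_comm h hx hiso hM hxM m
    rw [e, show (⟨w, mul_mem hxM hvM⟩ : M) = ⟨x, hxM⟩ * ⟨v, hvM⟩ from rfl]
    simp only [map_mul, map_inv, ← hf] at hcm ⊢
    calc (f m)⁻¹ * (f ⟨x, hxM⟩ * (f m * f ⟨v, hvM⟩ * (f m)⁻¹)) * f m
        = (f m)⁻¹ * (f ⟨x, hxM⟩ * f m) * f ⟨v, hvM⟩ := by group
      _ = (f m)⁻¹ * (f m * f ⟨x, hxM⟩) * f ⟨v, hvM⟩ := by rw [hcm]
      _ = f ⟨x, hxM⟩ * f ⟨v, hvM⟩ := by group
  have hfz : f ⟨z, hzM⟩ = f ⟨w, mul_mem hxM hvM⟩ := by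
    have h1 := (mk_eq_one_iff (mul_mem (inv_mem hzM) (mul_mem hxM hvM))).mpr (hsR M hM hxM hvM)
    rw [← inv_mul_eq_one, ← map_inv, ← map_mul]
    exact h1
  obtain ⟨d', hd'⟩ : ∃ d' : G, d' * w₁ * d'⁻¹ = z := by
    set S := Subgroup.zpowers (f ⟨w, mul_mem hxM hvM⟩) with hS
    set P₀ := S.comap f with hP₀
    have h1 : (⟨z, hzM⟩ : M) ∈ P₀ := by
      rw [hP₀, Subgroup.mem_comap, hfz]; exact Subgroup.mem_zpowers _
    have h2 : (⟨w₁, hw₁M⟩ : M) ∈ P₀ := by
      rw [hP₀, Subgroup.mem_comap, hfw]; exact Subgroup.mem_zpowers _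
    obtain ⟨Qa, hQa⟩ := (isPGroup_zpowers_of_pow (x := (⟨_, h1⟩ : P₀)) (k := k + 1)
      (Subtype.ext (Subtype.ext (by simpa using hzN)))).exists_le_sylow
    obtain ⟨Qb, hQb⟩ := (isPGroup_zpowers_of_pow (x := (⟨_, h2⟩ : P₀)) (k := k + 1)
      (Subtype.ext (Subtype.ext (by simpa using hw₁N)))).exists_le_sylow
    obtain ⟨q, hq⟩ := MulAction.exists_smul_eq (↥P₀) Qb Qa
    have h3 : q * ⟨_, h2⟩ * q⁻¹ ∈ (Qa : Subgroup ↥P₀) := by
      rw [← hq]
      exact Subgroup.smul_mem_pointwise_smul _ (MulAut.conj q) _ (hQb (Subgroup.mem_zpowers _))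
    have h4 : (⟨_, h1⟩ : P₀)⁻¹ * (q * ⟨_, h2⟩ * q⁻¹) ∈ (Qa : Subgroup ↥P₀) :=
      mul_mem (inv_mem (hQa (Subgroup.mem_zpowers _))) h3
    set t : M := ⟨z, hzM⟩⁻¹ * ((q : M) * ⟨w₁, hw₁M⟩ * (q : M)⁻¹) with ht
    have h5 : f t = 1 := by
      obtain ⟨i, hi⟩ := Subgroup.mem_zpowers_iff.mp (Subgroup.mem_comap.mp q.2)
      rw [ht, map_mul, map_inv, map_mul, map_mul, map_inv, hfz, hfw, ← hi,
        ((Commute.refl (f ⟨w, mul_mem hxM hvM⟩)).zpow_left i).eq, mul_inv_cancel_right,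
        inv_mul_cancel]
    obtain ⟨j, hj⟩ := exists_pow_eq_one_of_mem (Qa.2.map P₀.subtype) (x := t) ⟨_, h4, rfl⟩
    have h6 : (t : G) = 1 := eq_one_of_mem_coreIn ((mk_eq_one_iff t.2).mp h5) (k := j)
      (by simpa using congrArg Subtype.val hj)
    refine ⟨((q : M) : G), ?_⟩
    have h7 : z⁻¹ * (((q : M) : G) * w₁ * ((q : M) : G)⁻¹) = 1 := by simpa [ht] using h6
    exact (inv_mul_eq_one.mp h7).symm
  have hzconj : (χ : G → ℂ) z = (χ : G → ℂ) (x * y) := by
    have e : z = (d' * (m : G)⁻¹ * d) * (x * y) * (d' * (m : G)⁻¹ * d)⁻¹ := by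
      rw [← hd', hw₁, ← hd]; group
    rw [e]
    exact Chars.isClassFunction_coe χ _ _
  have hz1 : z ≠ 1 := by
    intro h1
    apply hne
    have e : z = (d' * (m : G)⁻¹ * d) * (x * y) * (d' * (m : G)⁻¹ * d)⁻¹ := by
      rw [← hd', hw₁, ← hd]; group
    rw [h1] at e
    exact conj_eq_one_iff.mp e.symm
  -- `s` lies in the core of the centraliser of `z`
  set L := Subgroup.centralizer ({z} : Set G) with hL
  have hLne : L ≠ ⊤ := h.centralizer_ne_top hz1
  have hsL : s ∈ L := Subgroup.mem_centralizer_singleton_iff.mpr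
    (((Commute.refl w).pow_left e).inv_left.mul_left (Commute.refl w) |>.pow_right e).eq
  have hsM : s ∈ coreIn r M := hsR M hM hxM hvM
  have hscore : (⟨s, hsL⟩ : L) ∈ pPrimeCore r ↥L := by
    rw [← QuotientGroup.eq_one_iff, ← QuotientGroup.mk'_apply]
    set g := QuotientGroup.mk' (pPrimeCore r ↥L) with hg
    refine eq_one_of_commute_fstar (hat_core_eq_bot L) (fun hd => ?_) fun ê hêF hêp => ?_
    · apply not_dvd_coreIn (r := r) M
      refine hd.trans ((orderOf_map_dvd g _).trans ?_)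
      rw [Subgroup.orderOf_mk]
      have := orderOf_dvd_natCard (⟨s, hsM⟩ : coreIn r M)
      rwa [Subgroup.orderOf_mk] at this
    · obtain ⟨i, hi⟩ := hêp
      obtain ⟨T, hT, -, hTS, -⟩ := exists_pGroup_lift g (QuotientGroup.mk'_surjective _)
        (isPGroup_zpowers_of_pow hi) (z := (1 : L)) (k := 0) (one_pow _)
        (by rw [map_one]; exact one_mem _)
      obtain ⟨ε, hεT, rfl⟩ : ê ∈ T.map g := hTS ▸ Subgroup.mem_zpowers ê
      set M' := Subgroup.closure ({x, v, (ε : G)} : Set G) with hM'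
      have hsM' := hsR M' (h.gen x v ε) (mem_triple₁ x v ε) (mem_triple₂ x v ε)
      set A := (coreIn r M').subgroupOf L with hA
      refine fstar_tame (hat_core_eq_bot L) (h.hat_facts hLne) hi hêF (A := A.map g) ?_ ?_
        ⟨⟨s, hsL⟩, hsM', rfl⟩
      · intro hd
        apply not_dvd_coreIn (r := r) M'
        refine hd.trans ((Subgroup.card_map_dvd _ _).trans ?_)
        exact Subgroup.card_comap_dvd_of_injective (coreIn r M') L.subtype L.subtype_injective
      · rintro _ ⟨a, ha, rfl⟩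
        exact ⟨ε * a * ε⁻¹, coreIn_conj_mem (mem_triple₃ x v (ε : G)) ha, by
          rw [map_mul, map_mul, map_inv]⟩
  have hsC : s ∈ coreC r (Subgroup.zpowers z) := by
    rw [coreC, Subgroup.zpowers_eq_closure, Subgroup.centralizer_closure]
    exact ⟨⟨s, hsL⟩, hscore, rfl⟩
  have hmain := apply_mul_eq_apply hM₀ (z := z) (r := s) ?_ hsC hχ
  · rw [← hzconj, ← hmain, hs, mul_inv_cancel_left]
  · exact (Nat.dvd_prime_pow hr.out).mp (orderOf_dvd_of_pow_eq_one hzN) |>.imp fun a ha => ha.2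

theorem iso_false : False := by
  obtain ⟨P, hP⟩ := (isPGroup_zpowers_of_pow (x := x) (k := 1)
    (by rw [pow_one]; exact hx.2.1)).exists_le_sylow
  have hxP : x ∈ (P : Subgroup G) := hP (Subgroup.mem_zpowers x)
  by_cases hbig : ∃ y ∈ (P : Subgroup G), y ∉ Subgroup.zpowers x
  · obtain ⟨y, hyP, hyx⟩ := hbig
    obtain ⟨M₀, hM₀⟩ := exists_isPModular r hr.out
    haveI := hM₀.2.1
    classical
    haveI := Fintype.ofFinite G
    have hy1 : y ≠ 1 := fun e => hyx (e ▸ one_mem _)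
    have hyd : r ∣ orderOf y := by
      obtain ⟨k, hk⟩ := exists_pow_eq_one_of_mem P.2 hyP
      obtain ⟨j, -, hj⟩ := (Nat.dvd_prime_pow hr.out).mp (orderOf_dvd_of_pow_eq_one hk)
      rw [hj]
      refine dvd_pow_self r fun h0 => hy1 ?_
      rw [← orderOf_eq_one_iff, hj, h0, pow_zero]
    have hzero : ∀ χ ∈ Finset.univ.filter (fun χ : IrrCharacter G => χ ∈ principalBlock M₀ G),
        χ ≠ Chars.oneChar G → (χ : G → ℂ) 1 * (χ : G → ℂ) y = 0 := by
      intro χ hχ hne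
      replace hχ := (Finset.mem_filter.mp hχ).2
      set a := (χ : G → ℂ) x / (χ : G → ℂ) 1 with ha
      have hd := Chars.map_one_ne_zero χ
      have hstep : ∀ i : ℕ, (χ : G → ℂ) (x ^ i * y) = a ^ i * (χ : G → ℂ) y := by
        intro i
        induction i with
        | zero => simp
        | succ i ih =>
          have hP' : x ^ i * y ∈ (P : Subgroup G) := mul_mem (pow_mem hxP i) hyP
          obtain ⟨k, hk⟩ := exists_pow_eq_one_of_mem P.2 hP'
          have hcomm : x * (x ^ i * y) = (x ^ i * y) * x :=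
            (iso_central h hx hiso P.2 hxP hP').symm
          have hne1 : x * (x ^ i * y) ≠ 1 := by
            intro e
            apply hyx
            have : y = (x * x ^ i)⁻¹ := eq_inv_of_mul_eq_one_right (by rwa [mul_assoc])
            exact this ▸ inv_mem (mul_mem (Subgroup.mem_zpowers x) (pow_mem (Subgroup.mem_zpowers x) i))
          have hrel := mul_eq_of_class_const χ fun v hv =>
            iso_apply_eq h hx hiso hM₀ hχ hk hcomm hne1 hv
          rw [pow_succ' x, mul_assoc, pow_succ' a, mul_assoc, ← ih, ha, div_mul_eq_mul_div,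
            eq_div_iff hd, hrel, mul_comm]
      have h1 := hstep r
      rw [hx.2.1, one_mul] at h1
      by_contra hne0
      have hy0 : (χ : G → ℂ) y ≠ 0 := fun e => hne0 (by rw [e, mul_zero])
      have har : a ^ r = 1 := mul_right_cancel₀ hy0 (by rw [← h1, one_mul])
      have hnorm : ‖a‖ = 1 := by
        have h2 := congrArg Norm.norm har
        rw [norm_pow, norm_one] at h2
        exact (pow_eq_one_iff_of_nonneg (norm_nonneg a) hr.out.ne_zero).mp h2
      refine hne (h.eq_oneChar_of_norm hx.1 ?_)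
      rw [ha, norm_div, div_eq_one_iff_eq (norm_ne_zero_iff.mpr hd)] at hnorm
      exact hnorm
    have hw := CfsgLib.ZStar.weak_orthogonality hM₀ (g := y) hyd
    rw [Finset.sum_eq_single (Chars.oneChar G) hzero (fun hn => absurd (Finset.mem_filter.mpr
      ⟨Finset.mem_univ _, CfsgLib.ZStar.oneChar_mem_principal⟩) hn)] at hw
    simp only [Chars.oneChar_apply, mul_one] at hw
    exact one_ne_zero hw
  · push Not at hbig
    have hnc : Subgroup.normalizer ((P : Subgroup G) : Set G) ≤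
        Subgroup.centralizer ((P : Subgroup G) : Set G) := by
      intro g hg
      have hgx : g * x * g⁻¹ ∈ (P : Subgroup G) := (Subgroup.mem_normalizer_iff.mp hg x).mp hxP
      have heq := iso_conj_eq h hx hiso (iso_central h hx hiso P.2 hxP hgx)
      refine Subgroup.mem_centralizer_iff.mpr fun t ht => ?_
      obtain ⟨i, rfl⟩ := Subgroup.mem_zpowers_iff.mp (hbig t ht)
      exact ((Commute.zpow_right (mul_inv_eq_iff_eq_mul.mp heq) i).eq).symm
    obtain ⟨P', N, hN, hcompl⟩ :=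
      CfsgLib.Transfer.hasNormalPComplement_of_normalizer_le_centralizer P hnc
    rcases h.eq_bot_or_top_of_normal hN with h1 | h1
    · have hPtop : (P' : Subgroup G) = ⊤ := Subgroup.isComplement'_bot_left.mp (h1 ▸ hcompl)
      have hG : IsPGroup r G := by
        have := P'.2
        rw [hPtop] at this
        exact this.of_equiv Subgroup.topEquiv
      refine hx.1 (h.eq_one_of_central fun g => ?_)
      exact iso_central h hx hiso (hG.to_subgroup ⊤) (Subgroup.mem_top x) (Subgroup.mem_top g)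
    · have hPbot : (P' : Subgroup G) = ⊥ := Subgroup.isComplement'_top_left.mp (h1 ▸ hcompl)
      exact P'.ne_bot_of_dvd_card h.dvd hPbot

end isolated

/-- **No element of order `r` in `Z(J(P))` is isolated**: `[g,x] ∈ O_{r'}` forces `[g,x] = 1`. -/
theorem Setup.commute_of_core (h : Setup G r) {x : G} (hx : IsZElem r x) {M : Subgroup G}
    (hM : M ≠ ⊤) (hxM : x ∈ M) {g : G} (hgM : g ∈ M) (hc : cm x g ∈ coreIn r M) :
    g * x = x * g := by
  rcases h.isolated_or_commute hx with h1 | h1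
  · exact (iso_false h hx h1).elim
  · exact h1 g ((h.coreComm_iff hx hM hxM hgM).mpr hc)

theorem Setup.commute_coreIn (h : Setup G r) {x : G} (hx : IsZElem r x) {M : Subgroup G}
    (hM : M ≠ ⊤) (hxM : x ∈ M) {y : G} (hy : y ∈ coreIn r M) : y * x = x * y := by
  refine h.commute_of_core hx hM hxM (coreIn_le M hy) ?_
  have e : cm x y = y * (x * y⁻¹ * x⁻¹) := by simp only [cm]; group
  rw [e]
  exact mul_mem hy (coreIn_conj_mem hxM (inv_mem hy))

end CfsgLib.Powell
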