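import Cfsg.Agent.Powell16.ZElements

/-!
The elements `g` whose commutator with a fixed element `x` lies in `O_{r'}⟨x, g⟩`: they form a subgroup
because three elements generate a proper subgroup.
-/

set_option autoImplicit false
set_option linter.style.haveILetI false

open scoped commutatorElement
open Cfsg

namespace CfsgLib.Powell

universe u

variable {G : Type u} [Group G] {r : ℕ}

/-- The commutator `g x g⁻¹ x⁻¹`. -/
def cm (x g : G) : G := g * x * g⁻¹ * x⁻¹

/-- `[g, x]` lies in the core of `⟨x, g⟩`. -/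
def CoreComm (r : ℕ) (x g : G) : Prop := cm x g ∈ coreIn r (Subgroup.closure ({x, g} : Set G))

theorem Setup.pair_ne_top (h : Setup G r) (a b : G) : Subgroup.closure ({a, b} : Set G) ≠ ⊤ :=
  fun e => h.gen a b b (by rw [← e]; congr 1; simp)

theorem Setup.singleton_ne_top (h : Setup G r) (a : G) : Subgroup.closure ({a} : Set G) ≠ ⊤ :=
  fun e => h.gen a a a (by rw [← e]; congr 1; simp)

theorem mem_triple₁ (a b c : G) : a ∈ Subgroup.closure ({a, b, c} : Set G) :=
  Subgroup.subset_closure (by simp)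

theorem mem_triple₂ (a b c : G) : b ∈ Subgroup.closure ({a, b, c} : Set G) :=
  Subgroup.subset_closure (by simp)

theorem mem_triple₃ (a b c : G) : c ∈ Subgroup.closure ({a, b, c} : Set G) :=
  Subgroup.subset_closure (by simp)

theorem Setup.eq_bot_or_top_of_normal (h : Setup G r) {N : Subgroup G} (hN : N.Normal) :
    N = ⊥ ∨ N = ⊤ :=
  haveI := h.simple
  IsSimpleGroup.eq_bot_or_eq_top_of_normal N hN

theorem Setup.eq_one_of_central (h : Setup G r) {z : G} (hz : ∀ g : G, g * z = z * g) : z = 1 := by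
  rcases h.eq_bot_or_top_of_normal (inferInstance : (Subgroup.center G).Normal) with h1 | h1
  · exact Subgroup.mem_bot.mp (h1 ▸ Subgroup.mem_center_iff.mpr hz)
  · obtain ⟨a, b, hab⟩ := h.noncomm
    exact absurd (Subgroup.mem_center_iff.mp (h1 ▸ Subgroup.mem_top b) a) hab

theorem Setup.centralizer_ne_top (h : Setup G r) {z : G} (hz : z ≠ 1) :
    Subgroup.centralizer ({z} : Set G) ≠ ⊤ := fun e =>
  hz (h.eq_one_of_central fun g => Subgroup.mem_centralizer_singleton_iff.mp (e ▸ Subgroup.mem_top g))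

variable [Finite G] [hr : Fact r.Prime]

/-- An element of order `r` in `Z(J(P))` lies in `F*` modulo the core, for every proper subgroup. -/
theorem Setup.zElem_fstar (h : Setup G r) {M : Subgroup G} (hM : M ≠ ⊤) {z : G} (hz : IsZElem r z)
    (hzM : z ∈ M) : QuotientGroup.mk' (pPrimeCore r ↥M) ⟨z, hzM⟩ ∈
      generalizedFittingSubgroup (↥M ⧸ pPrimeCore r ↥M) :=
  quad_mem_fstar (hat_core_eq_bot M) (h.hat_facts hM) h.odd (h.hat_qd M)
    (by rw [← map_pow, show (⟨z, hzM⟩ : M) ^ r = 1 from Subtype.ext (by simpa using hz.2.1), map_one])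
    (hat_isQuad hzM hz.2.1 (hz.isQuad h))

theorem Setup.tame_core (h : Setup G r) {M : Subgroup G} (hM : M ≠ ⊤) {z : G} (hz : IsZElem r z)
    (hzM : z ∈ M) {A : Subgroup G} (hAM : A ≤ M) (hA : ¬ r ∣ Nat.card A)
    (hn : ∀ a ∈ A, z * a * z⁻¹ ∈ A) {a : G} (ha : a ∈ A) :
    z * a * z⁻¹ * a⁻¹ ∈ coreIn r M := by
  set f := QuotientGroup.mk' (pPrimeCore r ↥M) with hf
  have hcomm := fstar_tame (hat_core_eq_bot M) (h.hat_facts hM) (k := 1)
    (show (f ⟨z, hzM⟩) ^ r ^ 1 = 1 by
      rw [pow_one, ← map_pow, show (⟨z, hzM⟩ : M) ^ r = 1 from Subtype.ext (by simpa using hz.2.1),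
        map_one])
    (h.zElem_fstar hM hz hzM) (A := (A.subgroupOf M).map f) ?_ ?_ (a := f ⟨a, hAM ha⟩) ⟨_, ha, rfl⟩
  · refine (mk_eq_one_iff (mul_mem (mul_mem (mul_mem hzM (hAM ha)) (inv_mem hzM))
      (inv_mem (hAM ha)))).mp ?_
    show f (⟨z, hzM⟩ * ⟨a, hAM ha⟩ * ⟨z, hzM⟩⁻¹ * ⟨a, hAM ha⟩⁻¹) = 1
    rw [map_mul, map_mul, map_mul, map_inv, map_inv, hcomm]
    group
  · intro hd
    apply hA
    refine hd.trans ((Subgroup.card_map_dvd _ _).trans ?_)
    rw [Nat.card_congr (Subgroup.subgroupOfEquivOfLe hAM).toEquiv]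
  · rintro _ ⟨y, hy, rfl⟩
    exact ⟨⟨z, hzM⟩ * y * ⟨z, hzM⟩⁻¹, hn _ hy, by rw [map_mul, map_mul, map_inv]⟩

theorem Setup.coreComm_iff (h : Setup G r) {x : G} (hx : IsZElem r x) {M : Subgroup G} (hM : M ≠ ⊤)
    (hxM : x ∈ M) {g : G} (hgM : g ∈ M) : CoreComm r x g ↔ cm x g ∈ coreIn r M := by
  set H := Subgroup.closure ({x, g} : Set G) with hH
  have hHM : H ≤ M := (Subgroup.closure_le M).mpr (by
    rintro y (rfl | rfl) <;> assumption)
  have hxH : x ∈ H := Subgroup.subset_closure (by simp)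
  have hgH : g ∈ H := Subgroup.subset_closure (by simp)
  refine ⟨fun hc => ?_, fun hc => mem_coreIn_of_le hHM hc
    (mul_mem (mul_mem (mul_mem hgH hxH) (inv_mem hgH)) (inv_mem hxH))⟩
  have hcA : cm x g ∈ coreIn r H := hc
  have h1 := h.tame_core hM hx hxM ((coreIn_le H).trans hHM) (not_dvd_coreIn H)
    (fun a ha => coreIn_conj_mem hxH ha) hcA
  set f := QuotientGroup.mk' (pPrimeCore r ↥M) with hf
  set c : M := ⟨cm x g, (coreIn_le H).trans hHM hcA⟩ with hcdef
  set xx : M := ⟨x, hxM⟩ with hxx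
  have h2 : f (xx * c * xx⁻¹ * c⁻¹) = 1 :=
    (mk_eq_one_iff (xx * c * xx⁻¹ * c⁻¹).2).mpr h1
  have hcomm : Commute (f c) (f xx) := by
    rw [map_mul, map_mul, map_mul, map_inv, map_inv, mul_inv_eq_one, mul_inv_eq_iff_eq_mul] at h2
    exact h2.symm
  have hxr : xx ^ r = 1 := Subtype.ext (by simpa using hx.2.1)
  have h3 : f (c ^ r) = 1 := by
    have e : c * xx = ⟨g, hgM⟩ * xx * ⟨g, hgM⟩⁻¹ := Subtype.ext (by simp [hcdef, hxx, cm])
    have h4 : f ((c * xx) ^ r) = 1 := by
      rw [e, conj_pow, hxr, mul_one, mul_inv_cancel, map_one]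
    rw [map_pow, map_mul, hcomm.mul_pow, ← map_pow, ← map_pow f xx, hxr, map_one, mul_one] at h4
    exact h4
  have h5 : cm x g ^ r ∈ coreIn r M := (mk_eq_one_iff (c ^ r).2).mp h3
  obtain ⟨m, hm⟩ := exists_pow_eq_self_of_coprime (x := cm x g) (n := r)
    ((hr.out.coprime_iff_not_dvd).mpr fun hd => not_dvd_coreIn H (hd.trans (by
      have := orderOf_dvd_natCard (⟨cm x g, hcA⟩ : coreIn r H)
      rwa [Subgroup.orderOf_mk] at this)))
  rw [← hm]
  exact pow_mem h5 m

/-- The elements `g` with `[g,x] ∈ O_{r'}⟨x,g⟩`. -/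
def Setup.xSub (h : Setup G r) {x : G} (hx : IsZElem r x) : Subgroup G where
  carrier := {g | CoreComm r x g}
  one_mem' := by
    show CoreComm r x 1
    rw [CoreComm, show cm x 1 = 1 by simp [cm]]
    exact one_mem _
  mul_mem' := by
    intro a b ha hb
    have hM := h.gen x a b
    have hxM := mem_triple₁ x a b
    have haM := mem_triple₂ x a b
    have hbM := mem_triple₃ x a b
    have ha' := (h.coreComm_iff hx hM hxM haM).mp ha
    have hb' := (h.coreComm_iff hx hM hxM hbM).mp hb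
    refine (h.coreComm_iff hx hM hxM (mul_mem haM hbM)).mpr ?_
    have e : cm x (a * b) = a * cm x b * a⁻¹ * cm x a := by simp only [cm]; group
    rw [e]
    exact mul_mem (coreIn_conj_mem haM hb') ha'
  inv_mem' := by
    intro a ha
    have hM := h.gen x a a
    have hxM := mem_triple₁ x a a
    have haM := mem_triple₂ x a a
    have ha' := (h.coreComm_iff hx hM hxM haM).mp ha
    refine (h.coreComm_iff hx hM hxM (inv_mem haM)).mpr ?_
    have e : cm x a⁻¹ = a⁻¹ * (cm x a)⁻¹ * a⁻¹⁻¹ := by simp only [cm]; group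
    rw [e]
    exact coreIn_conj_mem (inv_mem haM) (inv_mem ha')

theorem Setup.coreIn_le_xSub (h : Setup G r) {x : G} (hx : IsZElem r x) {M : Subgroup G}
    (hM : M ≠ ⊤) (hxM : x ∈ M) : coreIn r M ≤ h.xSub hx := by
  intro y hy
  refine (h.coreComm_iff hx hM hxM (coreIn_le M hy)).mpr ?_
  have e : cm x y = y * (x * y⁻¹ * x⁻¹) := by simp only [cm]; group
  rw [e]
  exact mul_mem hy (coreIn_conj_mem hxM (inv_mem hy))

/-- **The dichotomy.** Either `x` is isolated, or `[g,x] ∈ O_{r'}⟨x,g⟩` forces `[g,x] = 1`. -/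
theorem Setup.isolated_or_commute (h : Setup G r) {x : G} (hx : IsZElem r x) :
    (∀ g : G, CoreComm r x g) ∨ ∀ g : G, CoreComm r x g → g * x = x * g := by
  by_cases htop : h.xSub hx = ⊤
  · exact Or.inl fun g => (htop ▸ Subgroup.mem_top g : g ∈ h.xSub hx)
  refine Or.inr fun s hs => ?_
  have hmem : ∀ g : G, g * cm x s * g⁻¹ ∈ h.xSub hx := fun g => by
    have hM := h.gen x s g
    exact h.coreIn_le_xSub hx hM (mem_triple₁ x s g) (coreIn_conj_mem (mem_triple₃ x s g)
      ((h.coreComm_iff hx hM (mem_triple₁ x s g) (mem_triple₂ x s g)).mp hs))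
  have hle : Subgroup.normalClosure ({cm x s} : Set G) ≤ h.xSub hx := by
    rw [Subgroup.normalClosure, Subgroup.closure_le]
    intro y hy
    obtain ⟨a, ha, hay⟩ := Group.mem_conjugatesOfSet_iff.mp hy
    obtain ⟨c, rfl⟩ := isConj_iff.mp hay
    rw [Set.mem_singleton_iff] at ha
    exact ha ▸ hmem c
  have hc1 : cm x s = 1 := by
    by_contra hne
    rcases h.eq_bot_or_top_of_normal
      (inferInstance : (Subgroup.normalClosure ({cm x s} : Set G)).Normal) with h1 | h1
    · exact hne (Subgroup.mem_bot.mp (h1 ▸ Subgroup.subset_normalClosure rfl))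
    · exact htop (top_le_iff.mp (h1 ▸ hle))
  rw [cm, mul_inv_eq_one, mul_inv_eq_iff_eq_mul] at hc1
  exact hc1

end CfsgLib.Powell
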