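import Cfsg.Agent.Powell16.Setup
import Cfsg.Agent.GlaubermanZJ.QdFree
import Cfsg.Agent.Eq.Def_PLocal

/-!
Elements of order `r` in `Z(J(P))`: in a `Qd(r)`-free group any two of them in a common `r`-group
commute, and they act quadratically on every `r`-group containing them.
-/

set_option autoImplicit false
set_option linter.style.haveILetI false

open scoped commutatorElement Pointwise
open Cfsg

namespace CfsgLib.Powell

universe u

variable {G : Type u} [Group G] {r : ℕ}

/-- An element of order `r` in the centre of the Thompson subgroup of a Sylow `r`-subgroup. -/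
def IsZElem (r : ℕ) (z : G) : Prop :=
  z ≠ 1 ∧ z ^ r = 1 ∧ ∃ P : Sylow r G, z ∈ centerThompsonAOf (P : Subgroup G)

theorem zj_commute {T : Subgroup G} {a b : G} (ha : a ∈ centerThompsonAOf T)
    (hb : b ∈ centerThompsonAOf T) : a * b = b * a :=
  Subgroup.mem_centralizer_iff.mp hb.2 a ha.1

variable [Finite G] [hr : Fact r.Prime]

theorem zj_le (r : ℕ) [Fact r.Prime] (T : Subgroup G) : centerThompsonAOf T ≤ T :=
  (CfsgLib.GlaubermanZJ.abelianCenter r).obj_le G T

theorem zj_map_conj (r : ℕ) [Fact r.Prime] (g : G) (T : Subgroup G) :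
    (centerThompsonAOf T).map (MulAut.conj g).toMonoidHom =
      centerThompsonAOf (T.map (MulAut.conj g).toMonoidHom) :=
  (CfsgLib.GlaubermanZJ.abelianCenter r).obj_map G G (MulAut.conj g).toMonoidHom T
    ((MulAut.conj g).injective.comp T.subtype_injective)

theorem zj_conj {P : Sylow r G} {z : G} (hz : z ∈ centerThompsonAOf (P : Subgroup G)) (g : G) :
    g * z * g⁻¹ ∈ centerThompsonAOf ((g • P : Sylow r G) : Subgroup G) := by
  have h := zj_map_conj r g (P : Subgroup G)
  have h1 : ((g • P : Sylow r G) : Subgroup G) =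
      (P : Subgroup G).map (MulAut.conj g).toMonoidHom := rfl
  rw [h1, ← h]
  exact ⟨z, hz, rfl⟩

theorem exists_isZElem (h : Setup G r) : ∃ z : G, IsZElem r z := by
  obtain ⟨P⟩ : Nonempty (Sylow r G) := inferInstance
  have hne : centerThompsonAOf (P : Subgroup G) ≠ ⊥ :=
    (CfsgLib.GlaubermanZJ.abelianCenter r).obj_ne_bot G _ P.2 (P.ne_bot_of_dvd_card h.dvd)
  obtain ⟨k, hk⟩ := (P.2.to_le (zj_le r (P : Subgroup G))).exists_card_eq
  have hd : r ∣ Nat.card (centerThompsonAOf (P : Subgroup G)) := by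
    rw [hk]
    refine dvd_pow_self r fun h0 => hne ?_
    rw [h0, pow_zero] at hk
    exact Subgroup.card_eq_one.mp hk
  obtain ⟨z, hz⟩ := exists_prime_orderOf_dvd_card' r hd
  rw [← Subgroup.orderOf_coe] at hz
  refine ⟨z, fun h1 => hr.out.ne_one ?_, orderOf_dvd_iff_pow_eq_one.mp hz.dvd, P, z.2⟩
  rw [← hz, h1, orderOf_one]

theorem IsZElem.conj {z : G} (hz : IsZElem r z) (g : G) : IsZElem r (g * z * g⁻¹) := by
  obtain ⟨h1, h2, P, hP⟩ := hz
  refine ⟨fun he => h1 ?_, ?_, g • P, zj_conj hP g⟩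
  · simpa using he
  · rw [conj_pow, h2, mul_one, mul_inv_cancel]

omit [Finite G] in
theorem IsZElem.inv {z : G} (hz : IsZElem r z) : IsZElem r z⁻¹ :=
  ⟨inv_ne_one.mpr hz.1, by rw [inv_pow, hz.2.1, inv_one],
    hz.2.2.choose, inv_mem hz.2.2.choose_spec⟩

/-- `Z(J(P))` is strongly closed. -/
theorem IsZElem.mem_zj (h : Setup G r) {z : G} (hz : IsZElem r z) (Q : Sylow r G)
    (hzQ : z ∈ (Q : Subgroup G)) : z ∈ centerThompsonAOf (Q : Subgroup G) := by
  obtain ⟨-, -, P, hP⟩ := hz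
  obtain ⟨g, hg⟩ := MulAction.exists_smul_eq G Q P
  have hgz : g * z * g⁻¹ ∈ (P : Subgroup G) := by
    rw [← hg]
    exact Subgroup.smul_mem_pointwise_smul z (MulAut.conj g) _ hzQ
  have hctrl := (CfsgLib.GlaubermanZJ.controlsStrongFusionOf_of_qdFree h.odd
    (CfsgLib.GlaubermanZJ.abelianCenter r) h.qd P (D := (P : Subgroup G))
    ⟨le_rfl, fun _ _ _ hg => hg⟩ (A := {z})
    (Set.singleton_subset_iff.mpr (zj_le r _ hP))).2 g
    (by rw [Set.image_singleton, Set.singleton_subset_iff]; exact hgz)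
  obtain ⟨x, hx, hxz⟩ := hctrl
  have h2 : g * z * g⁻¹ ∈ centerThompsonAOf (P : Subgroup G) := by
    rw [hxz z rfl]
    exact (Subgroup.mem_normalizer_iff.mp hx z).mp hP
  have h3 := zj_conj h2 g⁻¹
  rw [← hg, inv_smul_smul, inv_inv] at h3
  simpa [mul_assoc] using h3

theorem IsZElem.isQuad (h : Setup G r) {z : G} (hz : IsZElem r z) : IsQuad r z := by
  intro S hS hzS u hu
  obtain ⟨Q, hQ⟩ := hS.exists_le_sylow
  have hzJ := hz.mem_zj h Q (hQ hzS)
  have hc : ⁅u, z⁆ ∈ centerThompsonAOf (Q : Subgroup G) := by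
    have h1 := zj_conj hzJ u
    have hsm : (u • Q : Sylow r G) = Q :=
      Sylow.smul_eq_iff_mem_normalizer.mpr (Subgroup.le_normalizer (hQ hu))
    rw [hsm] at h1
    exact mul_mem h1 (inv_mem hzJ)
  rw [commutatorElement_eq_one_iff_mul_comm]
  exact zj_commute hc hzJ

theorem IsZElem.commute_of_pGroup (h : Setup G r) {a b : G} (ha : IsZElem r a) (hb : IsZElem r b)
    {U : Subgroup G} (hU : IsPGroup r U) (haU : a ∈ U) (hbU : b ∈ U) : a * b = b * a := by
  obtain ⟨Q, hQ⟩ := hU.exists_le_sylow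
  exact zj_commute (ha.mem_zj h Q (hQ haU)) (hb.mem_zj h Q (hQ hbU))

theorem IsZElem.mul (h : Setup G r) {a b : G} (ha : IsZElem r a) (hb : IsZElem r b)
    (hab : a * b = b * a) (hne : a * b ≠ 1) : IsZElem r (a * b) := by
  have hU : IsPGroup r (Subgroup.closure ({a, b} : Set G)) := by
    refine isPGroup_closure_of_commute ?_ ?_
    · rintro x (rfl | rfl) y (rfl | rfl) <;> first | rfl | exact hab | exact hab.symm
    · rintro x (rfl | rfl)
      · exact ⟨1, by rw [pow_one]; exact ha.2.1⟩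
      · exact ⟨1, by rw [pow_one]; exact hb.2.1⟩
  obtain ⟨Q, hQ⟩ := hU.exists_le_sylow
  refine ⟨hne, ?_, Q, mul_mem (ha.mem_zj h Q (hQ (Subgroup.subset_closure (by simp))))
    (hb.mem_zj h Q (hQ (Subgroup.subset_closure (by simp))))⟩
  rw [Commute.mul_pow hab, ha.2.1, hb.2.1, one_mul]

end CfsgLib.Powell
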